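import Mathlib

/-!
# The affine group `AGL_k(p)` as a group of permutations

Translations, linear permutations, transvections; the normaliser of the translation group is the affine group.
-/

set_option autoImplicit false

namespace Cfsg.Agent.H605.Aff

open Equiv

variable (p k : ℕ) [Fact p.Prime]

/-- the vector space -/
abbrev V : Type := Fin k → ZMod p

/-- affine permutations -/
def IsAff (σ : Perm (V p k)) : Prop :=
  ∃ (A : V p k ≃ₗ[ZMod p] V p k) (b : V p k), ∀ v, σ v = A v + b

/-- the affine group -/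
def AGL : Subgroup (Perm (V p k)) where
  carrier := {σ | IsAff p k σ}
  mul_mem' := by
    rintro a b ⟨A, u, ha⟩ ⟨B, w, hb⟩
    refine ⟨B.trans A, A w + u, fun v => ?_⟩
    rw [Perm.mul_apply, hb, ha, map_add, add_assoc]
    rfl
  one_mem' := ⟨LinearEquiv.refl _ _, 0, fun v => by simp⟩
  inv_mem' := by
    rintro a ⟨A, u, ha⟩
    refine ⟨A.symm, -A.symm u, fun v => ?_⟩
    apply a.injective
    rw [show a (a⁻¹ v) = v from Equiv.apply_symm_apply a v, ha, map_add, map_neg, LinearEquiv.apply_symm_apply, LinearEquiv.apply_symm_apply]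
    simp

variable {p k}

theorem mem_AGL {σ : Perm (V p k)} : σ ∈ AGL p k ↔ ∃ (A : V p k ≃ₗ[ZMod p] V p k) (b : V p k), ∀ v, σ v = A v + b :=
  Iff.rfl

/-- translation by `b` -/
def tr (b : V p k) : Perm (V p k) := Equiv.addRight b

@[simp] theorem tr_apply (b v : V p k) : tr b v = v + b := rfl

theorem tr_mem (b : V p k) : tr b ∈ AGL p k := ⟨LinearEquiv.refl _ _, b, fun v => by simp⟩

theorem tr_zero : tr (0 : V p k) = 1 := by
  ext v : 1
  simp

theorem tr_mul (a b : V p k) : tr a * tr b = tr (a + b) := by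
  ext v : 1
  simp [add_assoc, add_comm b a]

theorem tr_inv (a : V p k) : (tr a)⁻¹ = tr (-a) := by
  rw [inv_eq_iff_mul_eq_one, tr_mul]
  simp [tr_zero]

theorem tr_pow (a : V p k) (n : ℕ) : tr a ^ n = tr (n • a) := by
  induction n with
  | zero => simp [tr_zero]
  | succ n ih => rw [pow_succ, ih, tr_mul, succ_nsmul]

theorem tr_pow_p (a : V p k) : tr a ^ p = 1 := by
  rw [tr_pow, ← tr_zero]
  congr 1
  ext i
  simp

/-- linear permutation -/
def lin (A : V p k ≃ₗ[ZMod p] V p k) : Perm (V p k) := A.toEquiv

@[simp] theorem lin_apply (A : V p k ≃ₗ[ZMod p] V p k) (v : V p k) : lin A v = A v := rfl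

theorem lin_mem (A : V p k ≃ₗ[ZMod p] V p k) : lin A ∈ AGL p k := ⟨A, 0, fun v => by simp⟩

/-- conjugate of a translation -/
theorem conj_tr {σ : Perm (V p k)} {A : V p k ≃ₗ[ZMod p] V p k} {b : V p k} (h : ∀ v, σ v = A v + b)
    (c : V p k) : σ * tr c * σ⁻¹ = tr (A c) := by
  have h1 : σ * tr c = tr (A c) * σ := by
    ext v : 1
    simp only [Perm.mul_apply, tr_apply, h, map_add]
    abel
  rw [h1, mul_assoc, mul_inv_cancel, mul_one]

/-- a permutation commuting with all translations is a translation -/
theorem eq_tr_of_comm {σ : Perm (V p k)} (h : ∀ b, σ * tr b = tr b * σ) : σ = tr (σ 0) := by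
  ext v : 1
  have h1 := congrArg (fun f : Perm (V p k) => f 0) (h v)
  simp only [Perm.mul_apply, tr_apply, zero_add] at h1
  rw [h1, tr_apply, add_comm]

/-- a permutation normalising the translation group is affine -/
theorem mem_AGL_of_norm {σ : Perm (V p k)} (h : ∀ b, ∃ c, σ * tr b * σ⁻¹ = tr c) : σ ∈ AGL p k := by
  have h1 : ∀ b x, σ (x + b) - σ x = σ b - σ 0 := by
    intro b x
    obtain ⟨c, hc⟩ := h b
    have h2 : σ * tr b = tr c * σ := by rw [← hc]; group
    have h3 : ∀ y, σ (y + b) = σ y + c := fun y => by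
      have := congrArg (fun f : Perm (V p k) => f y) h2
      simpa using this
    rw [h3, add_sub_cancel_left]
    have := h3 0
    rw [zero_add] at this
    rw [this, add_sub_cancel_left]
  let f : V p k →+ V p k :=
    { toFun := fun v => σ v - σ 0
      map_zero' := sub_self _
      map_add' := fun x y => by
        have := h1 y x
        rw [← this]
        abel }
  have hf : Function.Bijective f := by
    constructor
    · intro x y hxy
      have : σ x - σ 0 = σ y - σ 0 := hxy
      exact σ.injective (sub_left_inj.1 this)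
    · intro y
      refine ⟨σ.symm (y + σ 0), ?_⟩
      change σ (σ.symm (y + σ 0)) - σ 0 = y
      rw [Equiv.apply_symm_apply, add_sub_cancel_right]
  refine ⟨LinearEquiv.ofBijective (AddMonoidHom.toZModLinearMap p f) hf, σ 0, fun v => ?_⟩
  change σ v = (σ v - σ 0) + σ 0
  rw [sub_add_cancel]

/-! ### transvections -/

/-- the transvection `v ↦ v + f(v) u`, `f(u) = 0` -/
def tv (f : Module.Dual (ZMod p) (V p k)) (u : V p k) (h : f u = 0) : Perm (V p k) :=
  lin (LinearEquiv.transvection h)

@[simp] theorem tv_apply (f : Module.Dual (ZMod p) (V p k)) (u : V p k) (h : f u = 0) (v : V p k) :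
    tv f u h v = v + f v • u := by
  simp [tv, lin, LinearMap.transvection.apply]

theorem tv_pow (f : Module.Dual (ZMod p) (V p k)) (u : V p k) (h : f u = 0) (n : ℕ) (v : V p k) :
    (tv f u h ^ n) v = v + (n : ZMod p) • f v • u := by
  induction n with
  | zero => simp
  | succ n ih =>
    rw [pow_succ', Perm.mul_apply, ih, tv_apply]
    simp only [map_add, map_smul, h, smul_zero, add_zero]
    push_cast
    rw [add_smul, one_smul]
    abel

theorem tv_pow_p (f : Module.Dual (ZMod p) (V p k)) (u : V p k) (h : f u = 0) : tv f u h ^ p = 1 := by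
  ext v : 1
  rw [tv_pow]
  simp

theorem tv_mem (f : Module.Dual (ZMod p) (V p k)) (u : V p k) (h : f u = 0) : tv f u h ∈ AGL p k :=
  lin_mem _

/-- `p` odd: elements of order `p` are even -/
theorem sign_eq_one_of_pow {n : ℕ} (hn : Odd n) {σ : Perm (V p k)} (h : σ ^ n = 1) : Perm.sign σ = 1 := by
  have h1 : (Perm.sign σ) ^ n = 1 := by rw [← map_pow, h, map_one]
  rcases Int.units_eq_one_or (Perm.sign σ) with h2 | h2
  · exact h2
  · rw [h2, hn.neg_one_pow] at h1
    rw [h2]
    exact h1

/-- a functional with prescribed values on two independent vectors -/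
theorem exists_dual_pair {u v : V p k} (hli : LinearIndependent (ZMod p) ![u, v]) (x y : ZMod p) :
    ∃ f : Module.Dual (ZMod p) (V p k), f u = x ∧ f v = y := by
  obtain ⟨g, hg⟩ := LinearMap.exists_leftInverse_of_injective (Fintype.linearCombination (ZMod p) ![u, v])
    (by
      rw [LinearMap.ker_eq_bot]
      exact linearIndependent_iff_injective_fintypeLinearCombination.1 hli)
  have hu : g u = ![1, 0] := by
    have := LinearMap.congr_fun hg ![1, 0]
    simpa [Fintype.linearCombination_apply] using this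
  have hv : g v = ![0, 1] := by
    have := LinearMap.congr_fun hg ![0, 1]
    simpa [Fintype.linearCombination_apply] using this
  refine ⟨x • (LinearMap.proj 0 ∘ₗ g) + y • (LinearMap.proj 1 ∘ₗ g), ?_, ?_⟩
  · simp [hu]
  · simp [hv]

/-- independent vectors are related by a transvection -/
theorem exists_tv_of_li {u v : V p k} (hli : LinearIndependent (ZMod p) ![u, v]) :
    ∃ (f : Module.Dual (ZMod p) (V p k)) (a : V p k) (ha : f a = 0), tv f a ha u = v := by
  obtain ⟨f, h1, h2⟩ := exists_dual_pair hli 1 1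
  refine ⟨f, v - u, by rw [map_sub, h1, h2, sub_self], ?_⟩
  rw [tv_apply, h1, one_smul]
  abel

/-- any two nonzero vectors are related by at most two transvections, `k ≥ 2` -/
theorem exists_tv (hk : 2 ≤ k) {u v : V p k} (hu : u ≠ 0) (hv : v ≠ 0) :
    ∃ (f g : Module.Dual (ZMod p) (V p k)) (a b : V p k) (ha : f a = 0) (hb : g b = 0),
      (tv g b hb * tv f a ha) u = v := by
  by_cases h : LinearIndependent (ZMod p) ![u, v]
  · obtain ⟨f, a, ha, h1⟩ := exists_tv_of_li h
    refine ⟨f, 0, a, 0, ha, rfl, ?_⟩
    rw [Perm.mul_apply, h1]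
    simp
  · obtain ⟨w, hw⟩ := exists_linearIndependent_pair_of_one_lt_finrank (R := ZMod p) (M := V p k)
      (by rw [Module.finrank_fin_fun]; omega) hu
    have h2 : LinearIndependent (ZMod p) ![w, v] := by
      rw [LinearIndependent.pair_iff' hu] at h hw
      push Not at h
      obtain ⟨c, hc⟩ := h
      have hc0 : c ≠ 0 := by
        rintro rfl
        apply hv
        rw [← hc, zero_smul]
      have hw0 : w ≠ 0 := by
        rintro rfl
        exact hw 0 (zero_smul _ _)
      rw [LinearIndependent.pair_iff' hw0]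
      intro a ha
      have ha0 : a ≠ 0 := by
        rintro rfl
        apply hv
        rw [← ha, zero_smul]
      apply hw (a⁻¹ * c)
      rw [mul_smul, hc, ← ha, smul_smul, inv_mul_cancel₀ ha0, one_smul]
    obtain ⟨f, a, ha, h1⟩ := exists_tv_of_li hw
    obtain ⟨g, b, hb, h3⟩ := exists_tv_of_li h2
    refine ⟨f, g, a, b, ha, hb, ?_⟩
    rw [Perm.mul_apply, h1, h3]

end Cfsg.Agent.H605.Aff
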