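import Mathlib

/-!
# Prime power values of `(q^d - 1) / (q - 1)`
-/

set_option autoImplicit false

namespace Cfsg.Agent.H605.Aff.NT

/-- geometric sum -/
theorem sum_mul (Q s : ℕ) (hQ : 1 ≤ Q) : (∑ j ∈ Finset.range s, Q ^ j) * (Q - 1) = Q ^ s - 1 := by
  obtain ⟨t, rfl⟩ : ∃ t, Q = t + 1 := ⟨Q - 1, by omega⟩
  have := geom_sum_mul_add t s
  simp only [Nat.add_sub_cancel]
  omega

theorem lt_sum {Q s : ℕ} (hQ : 2 ≤ Q) (hs : 2 ≤ s) : s < ∑ j ∈ Finset.range s, Q ^ j := by
  obtain ⟨t, rfl⟩ : ∃ t, s = t + 2 := ⟨s - 2, by omega⟩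
  clear hs
  induction t with
  | zero => simp [Finset.sum_range_succ]; omega
  | succ t ih =>
    rw [show t + 1 + 2 = (t + 2) + 1 from rfl, Finset.sum_range_succ]
    have : 1 ≤ Q ^ (t + 2) := Nat.one_le_pow _ _ (by omega)
    omega

/-- if `Q ≡ 1 (mod p)`, `p` odd, the geometric sum is not a power of `p` -/
theorem not_pow_odd {p Q s b : ℕ} (hp : p.Prime) (hp2 : p ≠ 2) (hQ : 2 ≤ Q) (h1 : p ∣ Q - 1) (hs : 2 ≤ s)
    (h : ∑ j ∈ Finset.range s, Q ^ j = p ^ b) : False := by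
  have : Fact p.Prime := ⟨hp⟩
  have hodd : Odd p := hp.odd_of_ne_two hp2
  have hpQ : ¬ p ∣ Q := by
    intro h2
    have h3 : p ∣ 1 := by
      have := Nat.dvd_sub h2 h1
      rwa [Nat.sub_sub_self (by omega)] at this
    exact hp.one_lt.ne' (Nat.dvd_one.1 h3)
  have h2 := padicValNat.pow_sub_pow (p := p) hodd (x := Q) (y := 1) (by omega) h1 hpQ (n := s) (by omega)
  rw [one_pow, ← sum_mul Q s (by omega), h, padicValNat.mul (pow_ne_zero _ hp.ne_zero) (by omega),
    padicValNat.prime_pow] at h2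
  have h3 : b = padicValNat p s := by omega
  have h4 : p ^ b ∣ s := by rw [h3]; exact pow_padicValNat_dvd
  have h5 := Nat.le_of_dvd (by omega) h4
  have h6 := lt_sum hQ hs
  omega

theorem not_pow_two {Q s b : ℕ} (hQ : 2 ≤ Q) (h1 : 4 ∣ Q - 1) (hs : 2 ≤ s)
    (h : ∑ j ∈ Finset.range s, Q ^ j = 2 ^ b) : False := by
  have hodd : Odd Q := by
    rcases Nat.even_or_odd Q with h2 | h2
    · exfalso
      obtain ⟨c, hc⟩ := h1
      obtain ⟨e, he⟩ := h2
      omega
    · exact h2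
  -- the sum is even, hence `s` is even
  have hb : b ≠ 0 := by
    rintro rfl
    have := lt_sum hQ hs
    rw [h, pow_zero] at this
    omega
  have hse : Even s := by
    by_contra hso
    have h3 : Odd (∑ j ∈ Finset.range s, Q ^ j) := by
      rw [Finset.odd_sum_iff_odd_card_odd]
      rw [Finset.filter_true_of_mem (fun j _ => hodd.pow)]
      rw [Finset.card_range]
      exact Nat.not_even_iff_odd.1 hso
    rw [h] at h3
    exact (Nat.not_even_iff_odd.2 h3) ((Nat.even_pow' hb).2 even_two)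
  have h2 := padicValNat.pow_two_sub_pow (x := Q) (y := 1) (by omega) (by
      have : 2 ∣ Q - 1 := dvd_trans (by norm_num) h1
      exact this) (by
      intro h3
      exact (Nat.not_even_iff_odd.2 hodd) (even_iff_two_dvd.2 h3)) (n := s) (by omega) hse
  rw [one_pow, ← sum_mul Q s (by omega), h] at h2
  have : Fact (Nat.Prime 2) := ⟨Nat.prime_two⟩
  rw [padicValNat.mul (pow_ne_zero _ two_ne_zero) (by omega),
    padicValNat.prime_pow] at h2
  have h5 : padicValNat 2 (Q + 1) = 1 := by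
    obtain ⟨c, hc⟩ := h1
    have h6 : Q + 1 = 2 * (2 * c + 1) := by omega
    rw [h6, padicValNat.mul two_ne_zero (by omega), padicValNat_self,
      padicValNat.eq_zero_of_not_dvd (by omega)]
  have h3 : b = padicValNat 2 s := by omega
  have h4 : 2 ^ b ∣ s := by rw [h3]; exact pow_padicValNat_dvd
  have h7 := Nat.le_of_dvd (by omega) h4
  have h6 := lt_sum hQ hs
  omega

/-- `(q^d - 1)/(q - 1) = p^k`: either `p = 2`, `d = 2`, or `d` is the order of `q` modulo `p` -/
theorem main {p k q d : ℕ} (hp : p.Prime) (hk : k ≠ 0) (hq : 2 ≤ q) (hd : 2 ≤ d)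
    (h : q ^ d - 1 = p ^ k * (q - 1)) :
    (p = 2 ∧ d = 2 ∧ q + 1 = 2 ^ k) ∨ ∀ i, 1 ≤ i → i < d → ¬ p ∣ q ^ i - 1 := by
  have : Fact p.Prime := ⟨hp⟩
  by_cases hcon : ∀ i, 1 ≤ i → i < d → ¬ p ∣ q ^ i - 1
  · exact Or.inr hcon
  left
  push Not at hcon
  obtain ⟨i, hi1, hid, hpi⟩ := hcon
  have hsum : ∑ j ∈ Finset.range d, q ^ j = p ^ k := by
    have h1 := sum_mul q d (by omega)
    rw [h] at h1
    exact Nat.eq_of_mul_eq_mul_right (by omega) h1
  -- the order of `q` modulo `p`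
  have hone : ∀ j, p ∣ q ^ j - 1 ↔ (q : ZMod p) ^ j = 1 := by
    intro j
    have h1 : 1 ≤ q ^ j := Nat.one_le_pow _ _ (by omega)
    rw [← ZMod.natCast_eq_zero_iff, Nat.cast_sub h1, sub_eq_zero]
    push_cast
    rfl
  set e := orderOf (q : ZMod p) with he
  have hdp : p ∣ q ^ d - 1 := by rw [h]; exact Dvd.dvd.mul_right (dvd_pow_self p hk) _
  have hei : e ∣ i := orderOf_dvd_of_pow_eq_one ((hone i).1 hpi)
  have hed : e ∣ d := orderOf_dvd_of_pow_eq_one ((hone d).1 hdp)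
  have he0 : 0 < e := Nat.pos_of_ne_zero fun h0 => by rw [h0, zero_dvd_iff] at hei; omega
  have heq : p ∣ q ^ e - 1 := (hone e).2 (pow_orderOf_eq_one _)
  have hei' : e ≤ i := Nat.le_of_dvd (by omega) hei
  obtain ⟨s, hs⟩ := hed
  have hs2 : 2 ≤ s := by
    by_contra h2
    have : s = 0 ∨ s = 1 := by omega
    rcases this with rfl | rfl
    · omega
    · omega
  have hQ : 2 ≤ q ^ e := le_trans hq (Nat.le_self_pow he0.ne' q)
  have hdiv : (∑ j ∈ Finset.range s, (q ^ e) ^ j) ∣ p ^ k := by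
    have h1 := sum_mul (q ^ e) s (by omega)
    rw [← pow_mul, ← hs, h] at h1
    have h2 := sum_mul q e (by omega)
    rw [← h2] at h1
    refine ⟨∑ j ∈ Finset.range e, q ^ j, ?_⟩
    apply Nat.eq_of_mul_eq_mul_right (show 0 < q - 1 by omega)
    rw [← h1, mul_assoc]
  obtain ⟨b, -, hb⟩ := (Nat.dvd_prime_pow hp).1 hdiv
  rcases eq_or_ne p 2 with rfl | hp2
  · -- `p = 2`
    have hqodd : Odd q := by
      rcases Nat.even_or_odd q with h2 | h2
      · exfalso
        have h3 : Even (q ^ e) := (Nat.even_pow' he0.ne').2 h2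
        obtain ⟨c, hc⟩ := heq
        obtain ⟨c', hc'⟩ := h3
        omega
      · exact h2
    -- `d` is even
    have hde : Even d := by
      by_contra hso
      have h3 : Odd (∑ j ∈ Finset.range d, q ^ j) := by
        rw [Finset.odd_sum_iff_odd_card_odd]
        rw [Finset.filter_true_of_mem (fun j _ => hqodd.pow)]
        rw [Finset.card_range]
        exact Nat.not_even_iff_odd.1 hso
      rw [hsum] at h3
      exact (Nat.not_even_iff_odd.2 h3) ((Nat.even_pow' hk).2 even_two)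
    obtain ⟨m, hm⟩ := hde
    have hm' : d = 2 * m := by omega
    have h4 : 4 ∣ q ^ 2 - 1 := by
      obtain ⟨c, hc⟩ := hqodd
      refine ⟨c * (c + 1), ?_⟩
      rw [hc]
      have : (2 * c + 1) ^ 2 = 4 * (c * (c + 1)) + 1 := by ring
      omega
    have hQ2 : 2 ≤ q ^ 2 := le_trans hq (Nat.le_self_pow two_ne_zero q)
    have hdiv2 : (∑ j ∈ Finset.range m, (q ^ 2) ^ j) * (q + 1) = 2 ^ k := by
      have h1 := sum_mul (q ^ 2) m (by omega)
      rw [← pow_mul, ← hm', h] at h1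
      apply Nat.eq_of_mul_eq_mul_right (show 0 < q - 1 by omega)
      rw [← h1, mul_assoc]
      congr 1
      obtain ⟨t, rfl⟩ : ∃ t, q = t + 1 := ⟨q - 1, by omega⟩
      simp only [Nat.add_sub_cancel]
      have : (t + 1) ^ 2 = (t + 1 + 1) * t + 1 := by ring
      omega
    rcases Nat.lt_or_ge m 2 with h6 | h6
    · have hm1 : m = 1 := by omega
      subst hm1
      refine ⟨rfl, by omega, ?_⟩
      rw [← hdiv2]
      simp
    · exfalso
      obtain ⟨b', -, hb'⟩ := (Nat.dvd_prime_pow Nat.prime_two).1 (Dvd.intro _ hdiv2)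
      exact not_pow_two hQ2 h4 h6 hb'
  · exact (not_pow_odd hp hp2 hQ heq hs2 hb).elim

end Cfsg.Agent.H605.Aff.NT
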