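import Cfsg.Agent.S0243
import Cfsg.Agent.H605.Aff.NT

/-!
# The `p`-part of the order of `PSL_d(q)` for `(q^d - 1)/(q - 1) = p^k`
-/

set_option autoImplicit false

namespace Cfsg.Agent.H605.Aff.PartPSL

/-- `|PSL_d(q)|_p = p^k` if `(q^d - 1)/(q - 1) = p^k` -/
theorem not_dvd {F : Type*} [Field F] [Fintype F] {d : ℕ} (hd : 2 ≤ d) {p k : ℕ} (hp : p.Prime) (hk : k ≠ 0)
    (h : Fintype.card F ^ d - 1 = p ^ k * (Fintype.card F - 1)) :
    ¬ p ^ (k + 1) ∣ Nat.card (Matrix.ProjectiveSpecialLinearGroup (Fin d) F) := by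
  intro hdvd
  have hq : 2 ≤ Fintype.card F := Fintype.one_lt_card
  have hord := S0243.result (F := F) (q := Fintype.card F) rfl d hd
  set q := Fintype.card F with hqdef
  obtain ⟨e, rfl⟩ : ∃ e, d = e + 1 := ⟨d - 1, by omega⟩
  rcases NT.main hp hk hq hd h with ⟨rfl, hd2, hqk⟩ | hnd
  · have he : e = 1 := by omega
    subst he
    have hk2 : 2 ≤ k := by
      rcases k with _ | _ | k
      · exact absurd rfl hk
      · rw [zero_add, pow_one] at hqk; omega
      · omega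
    obtain ⟨t, rfl⟩ : ∃ t, k = t + 2 := ⟨k - 2, by omega⟩
    obtain ⟨c, hc⟩ := hdvd
    rw [Fin.prod_univ_two] at hord
    rw [hc] at hord
    have hq2 : q - 1 = 2 * (2 ^ (t + 1) - 1) := by
      have : 2 ^ (t + 2) = 2 * 2 ^ (t + 1) := by ring
      have h1 : 1 ≤ 2 ^ (t + 1) := Nat.one_le_two_pow
      omega
    have hg : Nat.gcd (1 + 1) (q - 1) = 2 := by
      rw [hq2]
      exact Nat.gcd_eq_left (Dvd.intro _ rfl)
    rw [hg] at hord
    have h3 : q ^ (1 + 1) - q ^ ((0 : Fin 2) : ℕ) = 2 ^ (t + 2) * (q - 1) := by simpa using h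
    have h4 : q ^ (1 + 1) - q ^ ((1 : Fin 2) : ℕ) = q * (q - 1) := by
      simp only [Fin.val_one, pow_one]
      rw [Nat.mul_sub, mul_one, pow_succ, pow_one]
    rw [h3, h4] at hord
    have h5 : 2 * ((q - 1) * (2 ^ (t + 2 + 1) * c)) = (2 ^ (t + 2) * (q - 1)) * (4 * c) := by
      rw [pow_succ 2 (t + 2)]; ring
    rw [h5] at hord
    have hpos : 0 < 2 ^ (t + 2) * (q - 1) := Nat.mul_pos (Nat.two_pow_pos _) (by omega)
    have h6 : 4 * c = q * (q - 1) := Nat.eq_of_mul_eq_mul_left hpos hord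
    rw [hq2] at h6
    have h7 : 2 * c = q * (2 ^ (t + 1) - 1) := by
      have : 2 * (2 * c) = 2 * (q * (2 ^ (t + 1) - 1)) := by linarith
      exact Nat.eq_of_mul_eq_mul_left two_pos this
    have ho1 : Odd q := by
      rw [Nat.odd_iff]
      have : 2 ^ (t + 2) = 2 * 2 ^ (t + 1) := by ring
      omega
    have ho2 : Odd (2 ^ (t + 1) - 1) := by
      rw [Nat.odd_iff]
      have : 2 ^ (t + 1) = 2 * 2 ^ t := by ring
      have h1 : 1 ≤ 2 ^ t := Nat.one_le_two_pow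
      omega
    have ho3 := ho1.mul ho2
    rw [← h7] at ho3
    exact (Nat.not_even_iff_odd.2 ho3) (even_two_mul c)
  · have h1 : p ^ (k + 1) ∣ ∏ i : Fin (e + 1), (q ^ (e + 1) - q ^ (i : ℕ)) := by
      rw [← hord]
      exact Dvd.dvd.mul_left (Dvd.dvd.mul_left hdvd _) _
    rw [Fin.prod_univ_succ] at h1
    have h2 : q ^ (e + 1) - q ^ ((0 : Fin (e + 1)) : ℕ) = p ^ k * (q - 1) := by simpa using h
    rw [h2, pow_succ, mul_assoc] at h1
    have h3 := Nat.dvd_of_mul_dvd_mul_left (pow_pos hp.pos k) h1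
    have hpq : ¬ p ∣ q := by
      intro h4
      have h5 : p ∣ q ^ (e + 1) - 1 := by rw [h]; exact Dvd.dvd.mul_right (dvd_pow_self p hk) _
      have h6 : p ∣ q ^ (e + 1) := Dvd.dvd.pow h4 (by omega)
      have h7 := Nat.dvd_sub h6 h5
      rw [Nat.sub_sub_self (Nat.one_le_pow _ _ (by omega))] at h7
      exact hp.one_lt.ne' (Nat.dvd_one.1 h7)
    rcases (hp.dvd_mul).1 h3 with h4 | h4
    · apply hnd 1 le_rfl (by omega)
      rwa [pow_one]
    · obtain ⟨i, -, hi⟩ := (Prime.dvd_finsetProd_iff hp.prime _).1 h4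
      have hi2 : (i : ℕ) < e := i.2
      have h5 : q ^ (e + 1) - q ^ ((i.succ : Fin (e + 1)) : ℕ) = q ^ ((i : ℕ) + 1) * (q ^ (e - (i : ℕ)) - 1) := by
        rw [Nat.mul_sub, ← pow_add, mul_one, Fin.val_succ]
        congr 2
        omega
      rw [h5] at hi
      rcases (hp.dvd_mul).1 hi with h6 | h6
      · exact hpq (hp.dvd_of_dvd_pow h6)
      · exact hnd (e - i) (by omega) (by omega) h6

end Cfsg.Agent.H605.Aff.PartPSL
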