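import Cfsg.Agent.H605.Aff.Perf
import Cfsg.Agent.H605.Aff.PartPSL
import Cfsg.Agent.PLocal.SL2Perfect
import Cfsg.Agent.LieClassical.SLGen
import Cfsg.Agent.Schreier.ClassPSL
import Cfsg.Agent.Schreier.ClassPSp
import Cfsg.Agent.SmallSimple.S1000.PSLFacts
import Cfsg.Prelude.Def_Classical
import Cfsg.Prelude.Def_Sporadic

/-!
# Overgroups of the affine group of dimension at least two
-/

set_option autoImplicit false

namespace Cfsg.Agent.H605.Aff

open Equiv
open Cfsg.Agent.Schreier.Basic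

/-- the statement of S3608 (Guralnick's theorem), for groups in `Type` -/
def IndexPP : Prop := ∀ (G : Type) [Group G] [Finite G], IsSimpleGroup G → ¬ IsMulCommutative G →
    ∀ (H : Subgroup G) (p k : ℕ), p.Prime → 1 ≤ k → H.index = p ^ k →
    (5 ≤ p ^ k ∧ Nonempty (G ≃* alternatingGroup (Fin (p ^ k)))) ∨
    (∃ (d : ℕ) (F : Type) (_ : Field F) (_ : Fintype F), 2 ≤ d ∧
      Fintype.card F ^ d - 1 = p ^ k * (Fintype.card F - 1) ∧
      Nonempty (G ≃* Matrix.ProjectiveSpecialLinearGroup (Fin d) F)) ∨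
    (p ^ k = 11 ∧ (Nonempty (G ≃* Matrix.ProjectiveSpecialLinearGroup (Fin 2) (ZMod 11)) ∨ Cfsg.IsM11 G)) ∨
    (p ^ k = 23 ∧ Cfsg.IsM23 G) ∨
    (p ^ k = 27 ∧ Nonempty (G ≃* Cfsg.PSp 2 (ZMod 3)))

variable {p k : ℕ} [Fact p.Prime]

theorem card_stab_mul {T : Subgroup (Perm (V p k))} (ht : MulAction.IsPretransitive T (V p k)) :
    Nat.card T = p ^ k * Nat.card (MulAction.stabilizer T (0 : V p k)) := by
  rw [← card_V (p := p) (k := k), ← MulAction.index_stabilizer_of_transitive T (0 : V p k), mul_comm,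
    Subgroup.card_mul_index]

omit [Fact p.Prime] in
/-- a subgroup isomorphic to the alternating group of the same degree is the alternating group -/
theorem alt_of_card {α : Type*} [Fintype α] [DecidableEq α] {n : ℕ} (hn : Fintype.card α = n)
    {T : Subgroup (Perm α)} (h : 2 * Nat.card T = n.factorial) : alternatingGroup α ≤ T := by
  have h1 : T.index = 2 := by
    have h3 := Subgroup.card_mul_index T
    rw [Nat.card_perm, Nat.card_eq_fintype_card (α := α), hn, ← h] at h3
    have : 0 < Nat.card T := Nat.card_pos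
    have h4 : Nat.card T * T.index = Nat.card T * 2 := by rw [h3, mul_comm]
    exact Nat.eq_of_mul_eq_mul_left this h4
  rw [Equiv.Perm.eq_alternatingGroup_of_index_eq_two h1]

theorem Simp.alt {H T : Subgroup (Perm (V p k))} (S : Simp H T) (h5 : 5 ≤ p ^ k)
    (e : T ≃* alternatingGroup (Fin (p ^ k))) : alternatingGroup (V p k) ≤ H := by
  refine le_trans (alt_of_card (n := p ^ k) ?_ ?_) S.le
  · rw [← Nat.card_eq_fintype_card, card_V]
  · rw [Nat.card_congr e.toEquiv, Nat.card_eq_fintype_card]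
    have : Nontrivial (Fin (p ^ k)) := Fin.nontrivial_iff_two_le.2 (by omega)
    rw [two_mul_card_alternatingGroup, Fintype.card_perm, Fintype.card_fin]

/-- the special linear group is perfect -/
theorem sl_perfect (hk : 2 ≤ k) (h : 3 ≤ k ∨ 5 ≤ p) :
    commutator (Matrix.SpecialLinearGroup (Fin k) (ZMod p)) = ⊤ := by
  rcases Nat.lt_or_ge k 3 with h3 | h3
  · have : k = 2 := by omega
    subst this
    exact PLocal.SL2Perfect.commutator_eq_top (by omega) (by omega)
  · exact LieClassical.SLGen.commutator_eq_top (by rw [Fintype.card_fin]; exact h3)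

theorem sign_slhom (hk : 2 ≤ k) (h : 3 ≤ k ∨ 5 ≤ p) (A : Matrix.SpecialLinearGroup (Fin k) (ZMod p)) :
    Perm.sign (slhom p k A) = 1 := by
  have h1 := Abelianization.commutator_subset_ker (Perm.sign.comp (slhom p k))
  rw [sl_perfect hk h] at h1
  exact h1 (Subgroup.mem_top A)

theorem exists_li (hk : 2 ≤ k) {b : V p k} (hb : b ≠ 0) : ∃ c, LinearIndependent (ZMod p) ![b, c] :=
  exists_linearIndependent_pair_of_one_lt_finrank (R := ZMod p) (M := V p k)
      (by rw [Module.finrank_fin_fun]; omega) hb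

/-- a translation is a commutator of a transvection and a translation -/
theorem tr_eq_comm (hk : 2 ≤ k) {b : V p k} (hb : b ≠ 0) :
    ∃ (f : Module.Dual (ZMod p) (V p k)) (h : f b = 0) (c : V p k), tr b = tv f b h * (tr c * (tv f b h)⁻¹ * (tr c)⁻¹) := by
  obtain ⟨c, hc⟩ := exists_li hk hb
  obtain ⟨f, h1, h2⟩ := exists_dual_pair hc 0 1
  refine ⟨f, h1, c, ?_⟩
  have h3 := conj_tr (σ := tv f b h1) (A := LinearEquiv.transvection h1) (b := 0) (fun v => by
    rw [add_zero]; rfl) c
  have h4 : (LinearEquiv.transvection h1 : V p k ≃ₗ[ZMod p] V p k) c = c + b := by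
    have := tv_apply f b h1 c
    rw [h2, one_smul] at this
    exact this
  rw [← mul_assoc, ← mul_assoc, h3, h4, tr_inv, tr_mul]
  congr 1
  abel

theorem sign_tr (hk : 2 ≤ k) (b : V p k) : Perm.sign (tr b) = 1 := by
  rcases eq_or_ne b 0 with rfl | hb
  · rw [tr_zero, map_one]
  · obtain ⟨f, h, c, hc⟩ := tr_eq_comm hk hb
    rw [hc]
    simp only [map_mul, map_inv]
    generalize Perm.sign (tv f b h) = x
    generalize Perm.sign (tr c) = y
    rw [mul_comm y, mul_assoc, mul_inv_cancel, mul_one, mul_inv_cancel]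

/-- `H` contains the special linear group and the translations. -/
structure Cont (H : Subgroup (Perm (V p k))) : Prop where
  tr : ∀ b, tr b ∈ H
  tv : ∀ (f : Module.Dual (ZMod p) (V p k)) (u : V p k) (h : f u = 0), tv f u h ∈ H

theorem Cont.lin_trans {H : Subgroup (Perm (V p k))} (hk : 2 ≤ k) (hC : Cont H) (c b : V p k) (hc : c ≠ 0) (hb : b ≠ 0) :
    ∃ A : V p k ≃ₗ[ZMod p] V p k, lin A ∈ H ∧ A c = b := by
  obtain ⟨f, g, x, y, hx, hy, h⟩ := exists_tv hk hc hb
  refine ⟨(LinearEquiv.transvection hx).trans (LinearEquiv.transvection hy), ?_, h⟩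
  exact H.mul_mem (hC.tv g y hy) (hC.tv f x hx)

theorem Cont.two {H : Subgroup (Perm (V p k))} (hk : 2 ≤ k) (hC : Cont H) :
    MulAction.IsMultiplyPretransitive H (V p k) 2 := by
  apply two_trans hC.tr
  intro c b hc hb
  obtain ⟨A, hA, h⟩ := hC.lin_trans hk c b hc hb
  exact ⟨lin A, hA, by simp, h⟩

/-- the order of `T` is divisible by `p ^ (k + 1)` if `T` contains a transvection -/
theorem Simp.dvd_of_tv {H T : Subgroup (Perm (V p k))} (S : Simp H T) {f : Module.Dual (ZMod p) (V p k)} {u v : V p k}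
    (h : f u = 0) (hu : u ≠ 0) (hv : f v ≠ 0) (ht : tv f u h ∈ T) : p ^ (k + 1) ∣ Nat.card T := by
  have hpp : p.Prime := Fact.out
  rw [card_stab_mul S.trans, pow_succ]
  apply Nat.mul_dvd_mul_left
  have h1 : (⟨tv f u h, ht⟩ : T) ∈ MulAction.stabilizer T (0 : V p k) := by
    rw [MulAction.mem_stabilizer_iff]
    change tv f u h 0 = 0
    simp
  have h2 : orderOf (⟨⟨tv f u h, ht⟩, h1⟩ : MulAction.stabilizer T (0 : V p k)) = p := by
    apply orderOf_eq_prime
    · apply Subtype.ext
      apply Subtype.ext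
      exact tv_pow_p f u h
    · intro h3
      have h4 := congrArg (fun x : MulAction.stabilizer T (0 : V p k) => ((x : T) : Perm (V p k)) v) h3
      change tv f u h v = v at h4
      rw [tv_apply] at h4
      have h5 : f v • u = 0 := by
        have := congrArg (fun w => w - v) h4
        simpa using this
      exact (smul_ne_zero hv hu) h5
  have h6 := orderOf_dvd_natCard (⟨⟨tv f u h, ht⟩, h1⟩ : MulAction.stabilizer T (0 : V p k))
  rw [h2] at h6
  exact h6

/-- an element of order 13 -/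
theorem exists_mat : ∃ A : Matrix.SpecialLinearGroup (Fin 3) (ZMod 3), A ^ 13 = 1 ∧
    A.1.mulVec ![1, 0, 0] ≠ ![1, 0, 0] :=
  ⟨⟨!![0, 0, 1; 1, 0, 1; 0, 1, 0], by decide⟩, by decide +kernel, by decide⟩

/-- the main case: `k ≥ 3` or `p ≥ 5` -/
theorem main_two (hG : IndexPP) {H : Subgroup (Perm (V p k))} (hk : 2 ≤ k) (h35 : 3 ≤ k ∨ 5 ≤ p)
    (hB : Big H) : H ≤ AGL p k ∨ alternatingGroup (V p k) ≤ H := by
  have hpp : p.Prime := Fact.out
  have hsl : ∀ A, slhom p k A ∈ H := fun A => hB _ (slhom_mem A) (sign_slhom hk h35 A)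
  have hC : Cont H := by
    constructor
    · exact fun b => hB _ (tr_mem b) (sign_tr hk b)
    · intro f u h
      obtain ⟨A, hA⟩ := exists_slhom f u h
      rw [← hA]
      exact hsl A
  rcases burnside (by omega) hC.tr (fun c b hc hb => Or.inr (hC.lin_trans hk c b hc hb)) (hC.two hk) with h | ⟨T, S⟩
  · exact Or.inl h
  right
  have hidx : (MulAction.stabilizer T (0 : V p k)).index = p ^ k := by
    have := S.trans
    rw [MulAction.index_stabilizer_of_transitive T (0 : V p k), card_V]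
  -- a transvection
  have : Nontrivial (V p k) := by
    rw [← Finite.one_lt_card_iff_nontrivial, card_V]
    exact Nat.one_lt_pow (by omega) hpp.one_lt
  obtain ⟨u, hu⟩ := exists_ne (0 : V p k)
  obtain ⟨v, hv⟩ := exists_li hk hu
  obtain ⟨f, hf, hf1⟩ := exists_dual_pair hv 0 1
  have hdvd : Sch T → p ^ (k + 1) ∣ Nat.card T := by
    intro hT
    obtain ⟨A, hA⟩ := exists_slhom f u hf
    refine S.dvd_of_tv hf hu (v := v) (by rw [hf1]; exact one_ne_zero) ?_
    rw [← hA]
    exact S.mem_of_perfect hT (sl_perfect hk h35) (slhom p k) hsl A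
  rcases hG T S.simple S.nonab (MulAction.stabilizer T (0 : V p k)) p k hpp (by omega) hidx with
    ⟨h5, ⟨e⟩⟩ | ⟨d, F, iF, iF', hd, hcard, ⟨e⟩⟩ | ⟨h11, -⟩ | ⟨h23, -⟩ | ⟨h27, ⟨e⟩⟩
  · exact S.alt h5 e
  · exfalso
    have hT : Sch T := (Schreier.ClassPSL.sch hd).of_equiv e.symm
    have h1 := hdvd hT
    rw [Nat.card_congr e.toEquiv] at h1
    exact PartPSL.not_dvd hd hpp (by omega) hcard h1
  · exfalso
    have : (11 : ℕ).Prime := by norm_num
    rw [← h11] at this
    exact absurd (Nat.Prime.eq_one_of_pow this) (by omega)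
  · exfalso
    have : (23 : ℕ).Prime := by norm_num
    rw [← h23] at this
    exact absurd (Nat.Prime.eq_one_of_pow this) (by omega)
  · exfalso
    have hp3 : p = 3 := by
      have h1 : p ∣ 3 ^ 3 := by
        have : p ∣ p ^ k := dvd_pow_self p (by omega)
        rw [h27] at this
        exact this
      exact (Nat.prime_dvd_prime_iff_eq hpp Nat.prime_three).1 (hpp.dvd_of_dvd_pow h1)
    subst hp3
    have hk3 : k = 3 := Nat.pow_right_injective (le_refl 2 |>.trans (by norm_num)) (h27 : 3 ^ k = 3 ^ 3)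
    subst hk3
    have hT : Sch T := (Schreier.ClassPSp.sch (F := ZMod 3) le_rfl (fun _ => by simp)).of_equiv e.symm
    have hA := fun A => S.mem_of_perfect hT (sl_perfect hk h35) (slhom 3 3) hsl A
    obtain ⟨A, hA1⟩ : ∃ A : Matrix.SpecialLinearGroup (Fin 3) (ZMod 3), orderOf (slhom 3 3 A) = 13 := by
      obtain ⟨M, hM, hM1⟩ := exists_mat
      refine ⟨M, ?_⟩
      have : Fact (Nat.Prime 13) := ⟨by norm_num⟩
      apply orderOf_eq_prime
      · rw [← map_pow, hM, map_one]
      · intro h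
        have h1 := congrArg (fun f : Perm (V 3 3) => f ![1, 0, 0]) h
        simp only [slhom_apply] at h1
        exact hM1 h1
    have h1 : 13 ∣ Nat.card T := by
      have h2 : orderOf (⟨slhom 3 3 A, hA A⟩ : T) = 13 := by
        rw [← hA1]
        exact Subgroup.orderOf_mk _ _
      rw [← h2]
      exact orderOf_dvd_natCard _
    rw [Nat.card_congr e.toEquiv, SmallSimple.PSLFacts.card_psp_two_three (by simp)] at h1
    norm_num at h1

end Cfsg.Agent.H605.Aff
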