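import Cfsg.Agent.H605.Aff.Out
import Cfsg.Agent.TIAbelian.IsolatedPSL

/-!
# Overgroups of the affine group of the plane over the field with three elements
-/

set_option autoImplicit false

namespace Cfsg.Agent.H605.Aff

open Equiv

/-- an element of order 4 of `SL(2,3)`, as an even permutation -/
theorem exists_four : ∃ σ : Perm (V 3 2), σ ∈ AGL 3 2 ∧ Perm.sign σ = 1 ∧ σ ^ 4 = 1 ∧ σ ^ 2 ≠ 1 := by
  obtain ⟨M, A, B, h4, h2, hA, hB, hM⟩ : ∃ M A B : Matrix.SpecialLinearGroup (Fin 2) (ZMod 3), M ^ 4 = 1 ∧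
      (M ^ 2).1.mulVec ![1, 0] ≠ ![1, 0] ∧ A ^ 3 = 1 ∧ B ^ 3 = 1 ∧ M = A * B * A :=
    ⟨⟨!![0, 2; 1, 0], by decide⟩, ⟨!![1, 2; 0, 1], by decide⟩, ⟨!![1, 0; 1, 1], by decide⟩,
      by decide +kernel, by decide +kernel, by decide +kernel, by decide +kernel,
      Subtype.ext (by decide +kernel)⟩
  refine ⟨slhom 3 2 M, slhom_mem M, ?_, by rw [← map_pow, h4, map_one], ?_⟩
  · have h3 : Odd 3 := by decide
    have hA' : Perm.sign (slhom 3 2 A) = 1 := sign_eq_one_of_pow h3 (by rw [← map_pow, hA, map_one])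
    have hB' : Perm.sign (slhom 3 2 B) = 1 := sign_eq_one_of_pow h3 (by rw [← map_pow, hB, map_one])
    rw [hM, map_mul, map_mul, map_mul, map_mul, hA', hB']
    rfl
  · intro h
    rw [← map_pow] at h
    have h1 := congrArg (fun f : Perm (V 3 2) => f ![1, 0]) h
    simp only [slhom_apply] at h1
    exact h2 h1

/-- `(q^d - 1)/(q - 1) = 9` -/
theorem nine {q d : ℕ} (hq : 2 ≤ q) (hd : 2 ≤ d) (h : q ^ d - 1 = 9 * (q - 1)) : d = 2 ∧ q = 8 := by
  rcases Nat.lt_or_ge d 3 with h3 | h3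
  · have : d = 2 := by omega
    subst this
    refine ⟨rfl, ?_⟩
    obtain ⟨t, rfl⟩ : ∃ t, q = t + 1 := ⟨q - 1, by omega⟩
    have h1 : (t + 1) ^ 2 - 1 = (t + 2) * t := by
      have : (t + 1) ^ 2 = (t + 2) * t + 1 := by ring
      omega
    rw [h1, Nat.add_sub_cancel] at h
    have := Nat.eq_of_mul_eq_mul_right (by omega : 0 < t) h
    omega
  · exfalso
    have h1 : q ^ 3 ≤ q ^ d := Nat.pow_le_pow_right (by omega) h3
    have h2 : q ≤ 2 := by
      by_contra hcon
      have : 3 ≤ q := by omega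
      have h4 : 3 * 3 * q ≤ q ^ 3 := by
        have : 3 * 3 ≤ q * q := Nat.mul_le_mul this this
        calc 3 * 3 * q ≤ q * q * q := Nat.mul_le_mul_right _ this
          _ = q ^ 3 := by ring
      omega
    have : q = 2 := by omega
    subst this
    have h5 : 2 ^ d = 10 := by
      have : 0 < 2 ^ d := by positivity
      omega
    rcases Nat.lt_or_ge d 4 with h6 | h6
    · have : d = 3 := by omega
      subst this
      norm_num at h5
    · have : 2 ^ 4 ≤ 2 ^ d := Nat.pow_le_pow_right (by norm_num) h6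
      omega

theorem main_nine (hG : IndexPP) {H : Subgroup (Perm (V 3 2))} (hB : Big H) :
    H ≤ AGL 3 2 ∨ alternatingGroup (V 3 2) ≤ H := by
  have hC : Cont H := by
    constructor
    · exact fun b => hB _ (tr_mem b) (sign_eq_one_of_pow (n := 3) (by decide) (tr_pow_p b))
    · exact fun f u h => hB _ (tv_mem f u h) (sign_eq_one_of_pow (n := 3) (by decide) (tv_pow_p f u h))
  rcases burnside (by omega) hC.tr (fun c b hc hb => Or.inr (hC.lin_trans le_rfl c b hc hb)) (hC.two le_rfl) with h | ⟨T, S⟩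
  · exact Or.inl h
  right
  have hidx : (MulAction.stabilizer T (0 : V 3 2)).index = 3 ^ 2 := by
    have := S.trans
    rw [MulAction.index_stabilizer_of_transitive T (0 : V 3 2), card_V]
  rcases hG T S.simple S.nonab (MulAction.stabilizer T (0 : V 3 2)) 3 2 Nat.prime_three (by omega) hidx with
    ⟨h5, ⟨e⟩⟩ | ⟨d, F, iF, iF', hd, hcard, ⟨e⟩⟩ | ⟨h11, -⟩ | ⟨h23, -⟩ | ⟨h27, -⟩
  · exact S.alt h5 e
  · exfalso
    obtain ⟨rfl, hF⟩ := nine (q := Fintype.card F) Fintype.one_lt_card hd hcard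
    have : Fact (Nat.Prime 2) := ⟨Nat.prime_two⟩
    have hF' : Fintype.card F = 2 ^ 3 := hF
    have hchar : CharP F 2 := charP_of_card_eq_prime_pow hF'
    have h1 := S.psl (by omega) hF' hd (by norm_num) e
    have heven : Even (Fintype.card F) := by rw [hF]; decide
    rw [Nat.card_congr e.toEquiv, ClassicalGeometry.PSL2Basic.card_PGL2, ClassicalGeometry.PSL2Basic.card_PSL2_even F heven,
      hF] at h1
    norm_num at h1
    have h3 := S.relIndex_dvd
    have hout : (MulAut.conj : T →* MulAut T).range.index = 3 := by omega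
    rw [hout] at h3
    obtain ⟨σ, hσ, hs, h4, h2⟩ := exists_four
    have hσH := hB σ hσ hs
    have hcube : σ ^ 3 ∈ T := by
      let T' : Subgroup H := T.subgroupOf H
      have hn : T'.Normal := ⟨fun n hn g => S.norm g g.2 n hn⟩
      have h6 : (⟨σ, hσH⟩ : H) ^ 3 ∈ T' := by
        have h7 : T'.index ∣ 3 := h3
        obtain ⟨c, hc⟩ := h7
        have h8 : (⟨σ, hσH⟩ : H) ^ 3 = ((⟨σ, hσH⟩ : H) ^ T'.index) ^ c := by
          rw [← pow_mul, ← hc]
        rw [h8]
        exact T'.pow_mem (Subgroup.pow_index_mem T' _) c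
      exact h6
    have hσT : σ ∈ T := by
      have : σ = (σ ^ 3) ^ 3 := by
        rw [← pow_mul]
        calc σ = (σ ^ 4) ^ 2 * σ := by rw [h4, one_pow, one_mul]
          _ = σ ^ (3 * 3) := by rw [← pow_mul, ← pow_succ]
      rw [this]
      exact T.pow_mem hcube 3
    have hord : orderOf (e ⟨σ, hσT⟩) = 4 := by
      rw [MulEquiv.orderOf_eq, Subgroup.orderOf_mk]
      exact orderOf_eq_prime_pow (p := 2) (n := 1) (by simpa using h2) (by simpa using h4)
    exact TIAbelian.IsolatedPSL.orderOf_ne_four _ hord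
  · norm_num at h11
  · norm_num at h23
  · norm_num at h27

end Cfsg.Agent.H605.Aff
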