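import Cfsg.Agent.H605.Aff.Out
import Cfsg.Agent.S0675
import Cfsg.Agent.S0676

/-!
# The affine group of the line: Sylow theory of overgroups
-/

set_option autoImplicit false

namespace Cfsg.Agent.H605.Aff

open Equiv

variable {p k : ℕ} [Fact p.Prime]

/-- the affine group as a set of pairs -/
theorem card_AGL_mul : Nat.card (AGL p k) = p ^ k * Nat.card (V p k ≃ₗ[ZMod p] V p k) := by
  rw [← card_V (p := p) (k := k), ← Nat.card_prod]
  refine (Nat.card_congr (Equiv.ofBijective
    (fun x : V p k × (V p k ≃ₗ[ZMod p] V p k) => (⟨tr x.1 * lin x.2, (AGL p k).mul_mem (tr_mem _) (lin_mem _)⟩ : AGL p k)) ⟨?_, ?_⟩)).symm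
  · rintro ⟨b, A⟩ ⟨c, B⟩ h
    have h1 : ∀ v, A v + b = B v + c := fun v => congrArg (fun f : AGL p k => (f : Perm (V p k)) v) h
    have h2 : b = c := by
      have := h1 0
      simpa using this
    subst h2
    congr 1
    ext v : 1
    exact add_right_cancel (h1 v)
  · rintro ⟨σ, A, b, h⟩
    refine ⟨(b, A), ?_⟩
    apply Subtype.ext
    ext v : 1
    exact (h v).symm

theorem card_AGL_one : Nat.card (AGL p 1) = p * (p - 1) := by
  have hpp : p.Prime := Fact.out
  rw [card_AGL_mul, pow_one]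
  congr 1
  have h1 : Nat.card (V p 1 ≃ₗ[ZMod p] V p 1) = Nat.card (Matrix.GeneralLinearGroup (Fin 1) (ZMod p)) := by
    refine Nat.card_congr (Equiv.symm ?_)
    exact (Matrix.GeneralLinearGroup.toLin.trans (LinearMap.GeneralLinearGroup.generalLinearEquiv _ _)).toEquiv
  rw [h1, Matrix.card_GL_field, Fin.prod_univ_one, ZMod.card]
  simp

theorem tr_mem_iff {H : Subgroup (Perm (V p k))} : (∀ b, tr b ∈ H) ↔ Tr p k ≤ H := by
  constructor
  · rintro h _ ⟨b, rfl⟩
    exact h b
  · intro h b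
    exact h ⟨b, rfl⟩

theorem card_Tr : Nat.card (Tr p k) = p ^ k := by
  rw [← card_V (p := p) (k := k)]
  refine (Nat.card_congr (Equiv.ofBijective (fun b : V p k => (⟨tr b, b, rfl⟩ : Tr p k)) ⟨?_, ?_⟩)).symm
  · intro b c h
    have := congrArg (fun f : Tr p k => (f : Perm (V p k)) 0) h
    simpa using this
  · rintro ⟨_, b, rfl⟩
    exact ⟨b, rfl⟩

theorem norm_Tr : Subgroup.normalizer ((Tr p k : Subgroup (Perm (V p k))) : Set (Perm (V p k))) = AGL p k := by
  ext σ
  constructor
  · intro h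
    apply mem_AGL_of_norm
    intro b
    obtain ⟨c, hc⟩ := (Subgroup.mem_normalizer_iff.1 h (tr b)).1 ⟨b, rfl⟩
    exact ⟨c, hc.symm⟩
  · rintro ⟨A, b, h⟩
    rw [Subgroup.mem_normalizer_iff]
    intro τ
    constructor
    · rintro ⟨c, rfl⟩
      exact ⟨A c, (conj_tr h c).symm⟩
    · rintro ⟨c, hc⟩
      refine ⟨A.symm c, ?_⟩
      have h1 := conj_tr h (A.symm c)
      rw [LinearEquiv.apply_symm_apply, hc] at h1
      exact mul_left_cancel (mul_right_cancel h1)

/-- `p` divides the order of a permutation group of degree `p` exactly -/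
theorem not_dvd_sq (H : Subgroup (Perm (V p 1))) : ¬ p ^ 2 ∣ Nat.card H := by
  have hpp : p.Prime := Fact.out
  intro h
  have h1 : p ^ 2 ∣ p.factorial := by
    have h2 := dvd_trans h (Subgroup.card_subgroup_dvd_card H)
    rw [Nat.card_perm, card_V, pow_one] at h2
    exact h2
  obtain ⟨q, rfl⟩ : ∃ q, p = q + 1 := ⟨p - 1, by have := hpp.pos; omega⟩
  rw [Nat.factorial_succ, pow_two] at h1
  have h2 := Nat.dvd_of_mul_dvd_mul_left hpp.pos h1
  have h3 := (hpp.dvd_factorial).1 h2
  omega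

/-- the translations as a Sylow subgroup -/
noncomputable def syl (H : Subgroup (Perm (V p 1))) (hH : Tr p 1 ≤ H) : Sylow p H :=
  IsPGroup.toSylow (P := (Tr p 1).subgroupOf H)
    (isPGroup_Tr.of_equiv (Subgroup.subgroupOfEquivOfLe hH).symm) (by
      intro h
      apply not_dvd_sq H
      rw [← Subgroup.card_mul_index ((Tr p 1).subgroupOf H), Nat.card_congr (Subgroup.subgroupOfEquivOfLe hH).toEquiv, card_Tr,
        pow_one, pow_two]
      exact Nat.mul_dvd_mul_left p h)

theorem coe_syl (H : Subgroup (Perm (V p 1))) (hH : Tr p 1 ≤ H) : ((syl H hH : Sylow p H) : Subgroup H) = (Tr p 1).subgroupOf H := by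
  unfold syl
  rfl

theorem norm_syl (H : Subgroup (Perm (V p 1))) (hH : Tr p 1 ≤ H) :
    Subgroup.normalizer (((syl H hH : Sylow p H) : Subgroup H) : Set H) = (AGL p 1).subgroupOf H := by
  rw [coe_syl, ← norm_Tr]
  ext x
  rw [Subgroup.mem_subgroupOf, Subgroup.mem_normalizer_iff, Subgroup.mem_normalizer_iff]
  constructor
  · intro h τ
    constructor
    · intro hτ
      exact (h ⟨τ, hH hτ⟩).1 hτ
    · intro hτ
      have h1 : τ ∈ H := by
        have h2 := H.mul_mem (H.mul_mem (H.inv_mem x.2) (hH hτ)) x.2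
        have h3 : (x : Perm (V p 1))⁻¹ * ((x : Perm (V p 1)) * τ * (x : Perm (V p 1))⁻¹) * x = τ := by group
        rwa [h3] at h2
      exact (h ⟨τ, h1⟩).2 hτ
  · intro h τ
    exact h τ

omit [Fact p.Prime] in
theorem card_inf (H K : Subgroup (Perm (V p k))) : Nat.card (K.subgroupOf H) = Nat.card (H ⊓ K : Subgroup _) := by
  rw [← Subgroup.inf_subgroupOf_left]
  exact Nat.card_congr (Subgroup.subgroupOfEquivOfLe inf_le_left).toEquiv

/-- The Sylow count -/
theorem sylow_count (H : Subgroup (Perm (V p 1))) (hH : Tr p 1 ≤ H) : ∃ n, n ≡ 1 [MOD p] ∧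
    Nat.card H = Nat.card (H ⊓ AGL p 1 : Subgroup _) * n := by
  refine ⟨Nat.card (Sylow p H), card_sylow_modEq_one p H, ?_⟩
  have h : Nat.card (Sylow p H) = ((AGL p 1).subgroupOf H).index := by
    rw [← norm_syl H hH]
    exact Sylow.card_eq_index_normalizer (syl H hH)
  rw [h, ← card_inf, Subgroup.card_mul_index]

/-- Frattini -/
theorem frattini {H T : Subgroup (Perm (V p 1))} (hTH : T ≤ H) (hT : Tr p 1 ≤ T)
    (hn : ∀ h ∈ H, ∀ t ∈ T, h * t * h⁻¹ ∈ T) :
    Nat.card H * Nat.card (T ⊓ AGL p 1 : Subgroup _) = Nat.card T * Nat.card (H ⊓ AGL p 1 : Subgroup _) := by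
  let T' : Subgroup H := T.subgroupOf H
  have hN : T'.Normal := ⟨fun n hn' g => hn g g.2 n hn'⟩
  let e : T' ≃* T := Subgroup.subgroupOfEquivOfLe hTH
  -- `H = T N_H(P)`
  have h1 : (AGL p 1).subgroupOf H ⊔ T' = ⊤ := by
    let P : Sylow p T' := IsPGroup.toSylow (P := ((Tr p 1).subgroupOf H).subgroupOf T')
      ((isPGroup_Tr (p := p) (k := 1)).of_equiv
        ((Subgroup.subgroupOfEquivOfLe (fun x hx => hT hx : (Tr p 1).subgroupOf H ≤ T')).trans
          (Subgroup.subgroupOfEquivOfLe (hT.trans hTH))).symm) (by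
        intro h
        apply not_dvd_sq T
        rw [← Nat.card_congr e.toEquiv, ← Subgroup.card_mul_index (((Tr p 1).subgroupOf H).subgroupOf T'),
          Nat.card_congr ((Subgroup.subgroupOfEquivOfLe (fun x hx => hT hx : (Tr p 1).subgroupOf H ≤ T')).trans
          (Subgroup.subgroupOfEquivOfLe (hT.trans hTH))).toEquiv, card_Tr,
          pow_one, pow_two]
        exact Nat.mul_dvd_mul_left p h)
    have h2 := Sylow.normalizer_sup_eq_top P
    have h3 : ((P : Subgroup T').map T'.subtype) = (Tr p 1).subgroupOf H := by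
      change (((Tr p 1).subgroupOf H).subgroupOf T').map T'.subtype = _
      rw [Subgroup.map_subgroupOf_eq_of_le]
      exact fun x hx => hT hx
    have h5 := norm_syl H (hT.trans hTH)
    rw [coe_syl H (hT.trans hTH)] at h5
    rw [← h5, ← h3]
    exact h2
  have h2 : T'.relIndex ((AGL p 1).subgroupOf H) = T'.index := by
    rw [← Subgroup.relIndex_sup_right, h1, Subgroup.relIndex_top_right]
  have h3 : Nat.card (T ⊓ AGL p 1 : Subgroup _) * T'.relIndex ((AGL p 1).subgroupOf H)
      = Nat.card (H ⊓ AGL p 1 : Subgroup _) := by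
    rw [← card_inf (p := p) (k := 1) H (AGL p 1)]
    have h4 := Subgroup.card_mul_index (T'.subgroupOf ((AGL p 1).subgroupOf H))
    have h5 : Nat.card (T'.subgroupOf ((AGL p 1).subgroupOf H)) = Nat.card (T ⊓ AGL p 1 : Subgroup _) := by
      rw [← Subgroup.inf_subgroupOf_left T' ((AGL p 1).subgroupOf H)]
      rw [Nat.card_congr (Subgroup.subgroupOfEquivOfLe inf_le_left).toEquiv]
      have h6 : (AGL p 1).subgroupOf H ⊓ T' = (T ⊓ AGL p 1).subgroupOf H := by
        ext x
        simp only [Subgroup.mem_inf, Subgroup.mem_subgroupOf, T']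
        exact and_comm
      rw [h6]
      exact Nat.card_congr (Subgroup.subgroupOfEquivOfLe (inf_le_left.trans hTH)).toEquiv
    rw [h5] at h4
    exact h4
  have h4 : Nat.card T * T'.index = Nat.card H := by
    rw [← Nat.card_congr e.toEquiv, Subgroup.card_mul_index]
  rw [← h3, h2, ← h4]
  ring

end Cfsg.Agent.H605.Aff
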