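import Cfsg.Agent.H605.Aff.KOneA

/-!
# The affine group of the line: arithmetic data of an overgroup
-/

set_option autoImplicit false

namespace Cfsg.Agent.H605.Aff

open Equiv

variable {p : ℕ} [Fact p.Prime]

theorem exists_nsmul (c b : V p 1) (hc : c ≠ 0) : ∃ n : ℕ, n • c = b := by
  have h0 : c 0 ≠ 0 := by
    intro h
    apply hc
    ext i
    rw [Subsingleton.elim i 0]
    exact h
  refine ⟨(b 0 * (c 0)⁻¹).val, ?_⟩
  ext i
  rw [Subsingleton.elim i 0]
  simp [h0]

theorem one_trans {k : ℕ} {H : Subgroup (Perm (V p k))} (htr : ∀ b, tr b ∈ H) : MulAction.IsPretransitive H (V p k) := by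
  refine ⟨fun x y => ⟨⟨tr (y - x), htr _⟩, ?_⟩⟩
  change x + (y - x) = y
  abel

/-- a solvable overgroup of the translation group is affine -/
theorem le_AGL_of_solvable {H : Subgroup (Perm (V p 1))} (htr : ∀ b, tr b ∈ H) (hs : Group.IsSolvable H) :
    H ≤ AGL p 1 := by
  classical
  have hpp : p.Prime := Fact.out
  have h1t := one_trans htr
  have hprim : MulAction.IsPreprimitive H (V p 1) :=
    MulAction.IsPreprimitive.of_prime_card (by rw [card_V, pow_one]; exact hpp)
  have hntV : Nontrivial (V p 1) := by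
    rw [← Finite.one_lt_card_iff_nontrivial, card_V, pow_one]
    exact hpp.one_lt
  have hbt : (⊤ : Subgroup H) ≠ ⊥ := by
    intro h
    obtain ⟨x, y, hxy⟩ := exists_pair_ne (V p 1)
    obtain ⟨g, hg⟩ := MulAction.exists_smul_eq H x y
    have : g ∈ (⊤ : Subgroup H) := trivial
    rw [h, Subgroup.mem_bot] at this
    rw [this, one_smul] at hg
    exact hxy hg
  obtain ⟨n, hn⟩ : ∃ n, derivedSeries H n = ⊥ := (Group.isSolvable_def H).1 hs
  obtain ⟨N, hNn, hN1, hNc⟩ : ∃ N : Subgroup H, N.Normal ∧ N ≠ ⊥ ∧ ⁅N, N⁆ = ⊥ := by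
    have hex : ∃ n, derivedSeries H n = ⊥ := ⟨n, hn⟩
    have h2 := Nat.find_spec hex
    have h3 : Nat.find hex ≠ 0 := by
      intro h
      rw [h, derivedSeries_zero] at h2
      exact hbt h2
    obtain ⟨m, hm⟩ := Nat.exists_eq_succ_of_ne_zero h3
    refine ⟨derivedSeries H m, inferInstance, Nat.find_min hex (by omega), ?_⟩
    rw [hm] at h2
    exact h2
  have hNtrans : MulAction.IsPretransitive N (V p 1) := by
    have := hprim.isQuasiPreprimitive
    apply MulAction.IsQuasiPreprimitive.isPretransitive_of_normal (G := H)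
    intro h
    apply hN1
    rw [eq_bot_iff]
    intro n hn
    rw [Subgroup.mem_bot]
    apply Subtype.ext
    ext x : 1
    have : x ∈ MulAction.fixedPoints N (V p 1) := by rw [h]; trivial
    exact this ⟨n, hn⟩
  have hc' : ∀ a ∈ N, ∀ b ∈ N, a * b = b * a := by
    intro a ha b hb
    have h2 := Subgroup.commutator_mem_commutator ha hb
    rw [hNc, Subgroup.mem_bot, commutatorElement_eq_one_iff_mul_comm] at h2
    exact h2
  refine le_AGL_of_abelian htr (fun c b hc _ => Or.inl (exists_nsmul c b hc)) hN1 hc' ?_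
  have hst : MulAction.stabilizer N (0 : V p 1) = ⊥ := by
    rw [eq_bot_iff]
    intro n hn
    rw [Subgroup.mem_bot]
    apply Subtype.ext
    apply Subtype.ext
    refine semireg (C := {σ | ∃ m ∈ N, (m : Perm (V p 1)) = σ}) (x := 0) ?_ ?_ hn
    · intro x y
      obtain ⟨m, h⟩ := MulAction.exists_smul_eq N x y
      exact ⟨m, ⟨m, m.2, rfl⟩, h⟩
    · rintro _ ⟨m, hm, rfl⟩
      exact congrArg Subtype.val (hc' _ n.2 m hm)
  have h1 : Nat.card N = p ^ 1 := by
    have := MulAction.index_stabilizer_of_transitive N (0 : V p 1)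
    rw [hst, Subgroup.index_bot, card_V] at this
    exact this
  exact IsPGroup.of_card h1

/-- the order of a 3-transitive group -/
theorem three_dvd {α : Type*} [Fintype α] {H : Subgroup (Perm α)} (h3 : MulAction.IsMultiplyPretransitive H α 3)
    {n : ℕ} (hn : Fintype.card α = n + 2) (hn1 : 1 ≤ n) : (n + 2) * ((n + 1) * n) ∣ Nat.card H := by
  classical
  have : Nonempty (Fin 3 ↪ α) := by
    rw [Function.Embedding.nonempty_iff_card_le, Fintype.card_fin]
    omega
  obtain ⟨x⟩ := this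
  have h2 := @MulAction.index_stabilizer_of_transitive H (Fin 3 ↪ α) _ _ x h3
  rw [Nat.card_eq_fintype_card, Fintype.card_embedding_eq, Fintype.card_fin, hn] at h2
  have h4 : (n + 2).descFactorial 3 = (n + 2) * ((n + 1) * n) := by
    simp only [Nat.descFactorial, Nat.sub_zero, mul_one]
    have : n + 2 - 2 = n := by omega
    have h5 : n + 2 - 1 = n + 1 := by omega
    rw [this, h5]
    ring
  rw [h4] at h2
  rw [← h2]
  exact Subgroup.index_dvd_card _

/-- arithmetic data -/
structure Dat (H T : Subgroup (Perm (V p 1))) (m e : ℕ) : Prop where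
  S : Simp H T
  trT : Tr p 1 ≤ T
  cardm : Nat.card (T ⊓ AGL p 1 : Subgroup _) = p * m
  carde : Nat.card (H ⊓ AGL p 1 : Subgroup _) = p * e
  hm : m ∣ p - 1
  he : (e = p - 1 ∧ AGL p 1 ≤ H) ∨ 2 * e = p - 1
  frat : Nat.card H * m = Nat.card T * e
  syl : ∃ n, n ≡ 1 [MOD p] ∧ Nat.card T = p * (m * n)

theorem Tr_le {H T : Subgroup (Perm (V p 1))} (S : Simp H T) (hH : Tr p 1 ≤ H) : Tr p 1 ≤ T := by
  have hpp : p.Prime := Fact.out
  let T' : Subgroup H := T.subgroupOf H
  have hN : T'.Normal := ⟨fun n hn' g => S.norm g g.2 n hn'⟩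
  rintro _ ⟨b, rfl⟩
  have hb : tr b ∈ H := hH ⟨b, rfl⟩
  have h1 : (⟨tr b, hb⟩ : H) ^ T'.index ∈ T' := Subgroup.pow_index_mem T' _
  have h2 : p ∣ Nat.card T := by
    rw [card_stab_mul S.trans, pow_one]
    exact Dvd.intro _ rfl
  have h3 : ¬ p ∣ T'.index := by
    intro h
    apply not_dvd_sq H
    rw [← Subgroup.card_mul_index T', Nat.card_congr (Subgroup.subgroupOfEquivOfLe S.le).toEquiv, pow_two]
    exact Nat.mul_dvd_mul h2 h
  obtain ⟨c, -, hc⟩ := Nat.exists_mul_mod_eq_one_of_coprime (n := T'.index) (k := p)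
    ((Nat.Prime.coprime_iff_not_dvd hpp).2 h3).symm hpp.one_lt
  have h4 : (⟨tr b, hb⟩ : H) ^ p = 1 := Subtype.ext (tr_pow_p b)
  have h5 : (⟨tr b, hb⟩ : H) = ((⟨tr b, hb⟩ : H) ^ T'.index) ^ c := by
    rw [← pow_mul, pow_eq_pow_mod _ h4, hc, pow_one]
  have h6 : (⟨tr b, hb⟩ : H) ∈ T' := by
    rw [h5]
    exact T'.pow_mem h1 c
  exact h6

/-- the data of an overgroup -/
theorem exists_dat {H : Subgroup (Perm (V p 1))} (h5 : 5 ≤ p) (hB : Big H) :
    H ≤ AGL p 1 ∨ (¬ Group.IsSolvable H ∧ ∃ T m e, Dat H T m e) := by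
  have hpp : p.Prime := Fact.out
  have hodd : Odd p := hpp.odd_of_ne_two (by omega)
  have htr : ∀ b, tr b ∈ H := fun b => hB _ (tr_mem b) (sign_eq_one_of_pow hodd (tr_pow_p b))
  have hTrH := tr_mem_iff.1 htr
  have h1t := one_trans htr
  by_cases hsol : Group.IsSolvable H
  · exact Or.inl (le_AGL_of_solvable htr hsol)
  rcases S0675.result (α := V p 1) (by rw [← Nat.card_eq_fintype_card, card_V, pow_one]; exact hpp) H with h | h2
  · exact (hsol h).elim
  rcases burnside (by omega) htr (fun c b hc _ => Or.inl (exists_nsmul c b hc)) h2 with h | ⟨T, S⟩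
  · exact Or.inl h
  right
  refine ⟨hsol, T, ?_⟩
  have hTrT := Tr_le S hTrH
  have hp0 : 0 < p := hpp.pos
  obtain ⟨m, hm⟩ : p ∣ Nat.card (T ⊓ AGL p 1 : Subgroup _) := by
    have h3 := Subgroup.card_dvd_of_le (le_inf hTrT (by rintro _ ⟨b, rfl⟩; exact tr_mem b) : Tr p 1 ≤ T ⊓ AGL p 1)
    rwa [card_Tr, pow_one] at h3
  have hmp : m ∣ p - 1 := by
    have h3 := Subgroup.card_dvd_of_le (inf_le_right : T ⊓ AGL p 1 ≤ AGL p 1)
    rw [hm, card_AGL_one] at h3
    exact Nat.dvd_of_mul_dvd_mul_left hp0 h3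
  -- `e`
  have hrel : H.relIndex (AGL p 1) ∣ 2 := by
    have h3 : (H ⊓ AGL p 1).relIndex (AGL p 1) ∣ (alternatingGroup (V p 1) ⊓ AGL p 1).relIndex (AGL p 1) := by
      apply Subgroup.relIndex_dvd_of_le_left
      rintro σ ⟨h4, h5⟩
      exact ⟨hB σ h5 (Perm.mem_alternatingGroup.1 h4), h5⟩
    rw [Subgroup.inf_relIndex_right, Subgroup.inf_relIndex_right] at h3
    have hnt : Nontrivial (V p 1) := by
      rw [← Finite.one_lt_card_iff_nontrivial, card_V, pow_one]
      exact hpp.one_lt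
    have h4 : (alternatingGroup (V p 1)).relIndex (AGL p 1) ∣ (alternatingGroup (V p 1)).index :=
      Subgroup.relIndex_dvd_index_of_normal _ _
    rw [alternatingGroup.index_eq_two] at h4
    exact dvd_trans h3 h4
  have hmul : Nat.card (H ⊓ AGL p 1 : Subgroup _) * H.relIndex (AGL p 1) = p * (p - 1) := by
    rw [← card_AGL_one, inf_comm, ← card_inf]
    exact Subgroup.card_mul_index _
  obtain ⟨e, he⟩ : p ∣ Nat.card (H ⊓ AGL p 1 : Subgroup _) := by
    have h3 := Subgroup.card_dvd_of_le (le_inf hTrH (by rintro _ ⟨b, rfl⟩; exact tr_mem b) : Tr p 1 ≤ H ⊓ AGL p 1)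
    rwa [card_Tr, pow_one] at h3
  refine ⟨m, e, S, hTrT, hm, he, hmp, ?_, ?_, ?_⟩
  · rw [he, mul_assoc] at hmul
    have h3 := Nat.eq_of_mul_eq_mul_left hp0 hmul
    rcases (Nat.dvd_prime Nat.prime_two).1 hrel with h4 | h4
    · left
      rw [h4, mul_one] at h3
      exact ⟨h3, Subgroup.relIndex_eq_one.1 h4⟩
    · right
      rw [h4] at h3
      omega
  · have h3 := frattini S.le hTrT S.norm
    rw [hm, he] at h3
    apply Nat.eq_of_mul_eq_mul_left hp0
    linarith
  · obtain ⟨n, hn, h3⟩ := sylow_count T hTrT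
    exact ⟨n, hn, by rw [h3, hm, mul_assoc]⟩

namespace Dat

variable {H T : Subgroup (Perm (V p 1))} {m e : ℕ}

theorem m_pos (D : Dat H T m e) : 0 < m := by
  have hpp : p.Prime := Fact.out
  exact Nat.pos_of_dvd_of_pos D.hm (by have := hpp.one_lt; omega)

theorem m_lt (D : Dat H T m e) : m < p := by
  have hpp : p.Prime := Fact.out
  have := hpp.one_lt
  have := Nat.le_of_dvd (by omega) D.hm
  omega

/-- `m ≡ |T|/p` -/
theorem m_mod (D : Dat H T m e) {t : ℕ} (ht : Nat.card T = p * t) : t ≡ m [MOD p] := by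
  have hpp : p.Prime := Fact.out
  obtain ⟨n, hn, h⟩ := D.syl
  rw [h] at ht
  rw [← Nat.eq_of_mul_eq_mul_left hpp.pos ht]
  exact (hn.mul_left m).trans (by rw [mul_one])

/-- `e = |H : T| m` -/
theorem e_eq (D : Dat H T m e) : e = T.relIndex H * m := by
  have h1 : Nat.card T * T.relIndex H = Nat.card H := by
    have h2 := Subgroup.card_mul_index (T.subgroupOf H)
    rw [Nat.card_congr (Subgroup.subgroupOfEquivOfLe D.S.le).toEquiv] at h2
    exact h2
  have h3 := D.frat
  rw [← h1, mul_assoc] at h3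
  exact (Nat.eq_of_mul_eq_mul_left Nat.card_pos h3).symm

theorem card_H (D : Dat H T m e) : Nat.card H = Nat.card T * T.relIndex H := by
  have h2 := Subgroup.card_mul_index (T.subgroupOf H)
  rw [Nat.card_congr (Subgroup.subgroupOfEquivOfLe D.S.le).toEquiv] at h2
  exact h2.symm

/-- 3-transitivity if `e` is even -/
theorem three (D : Dat H T m e) (hsol : ¬ Group.IsSolvable H) (he : Even e) (h5 : 5 ≤ p) :
    p * ((p - 1) * (p - 2)) ∣ Nat.card H := by
  have hpp : p.Prime := Fact.out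
  have hTrH : Tr p 1 ≤ H := D.trT.trans D.S.le
  have h1t := one_trans (tr_mem_iff.2 hTrH)
  have h1 := S0676.result (α := V p 1) (p := p) (by rw [← Nat.card_eq_fintype_card, card_V, pow_one]) H hsol
    (Aff.syl H hTrH) (by
      have h2 : Nat.card (Subgroup.normalizer (((Aff.syl H hTrH : Sylow p H) : Subgroup H) : Set H)) = p * e := by
        rw [norm_syl H hTrH, card_inf, D.carde]
      rw [h2]
      exact he.mul_left p)
  obtain ⟨n, rfl⟩ : ∃ n, p = n + 2 := ⟨p - 2, by omega⟩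
  have h2 := three_dvd h1 (n := n) (by rw [← Nat.card_eq_fintype_card, card_V, pow_one]) (by omega)
  simpa using h2

end Dat

end Cfsg.Agent.H605.Aff
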