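import Cfsg.Agent.H605.Aff.KOneB
import Cfsg.Agent.H605.Aff.NumOne
import Cfsg.Agent.UGT.MTwentyThree.End
import Cfsg.Agent.SectRankFour.AutM11
import Cfsg.Agent.SporadicA.T23

/-!
# Overgroups of the affine group of the line
-/

set_option autoImplicit false

namespace Cfsg.Agent.H605.Aff

open Equiv

variable {p : ℕ} [Fact p.Prime]

omit [Fact p.Prime] in
theorem Simp.relIndex_one {k : ℕ} {H T : Subgroup (Perm (V p k))} (S : Simp H T)
    (h : ∀ α : MulAut T, ∃ t : T, α = MulAut.conj t) : T.relIndex H = 1 := by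
  have h1 := S.relIndex_dvd
  have h2 : (MulAut.conj : T →* MulAut T).range = ⊤ := by
    rw [eq_top_iff]
    rintro α -
    obtain ⟨t, ht⟩ := h α
    exact ⟨t, ht.symm⟩
  rw [h2, Subgroup.index_top] at h1
  exact Nat.dvd_one.1 h1

theorem Dat.e_of_le {H T : Subgroup (Perm (V p 1))} {m e : ℕ} (D : Dat H T m e) (h : AGL p 1 ≤ H) : e = p - 1 := by
  have hpp : p.Prime := Fact.out
  have h1 := D.carde
  rw [inf_eq_right.2 h, card_AGL_one] at h1
  exact (Nat.eq_of_mul_eq_mul_left hpp.pos h1).symm

theorem Dat.m_eq {H T : Subgroup (Perm (V p 1))} {m e : ℕ} (D : Dat H T m e) {t s : ℕ} (ht : Nat.card T = p * t)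
    (hts : t ≡ s [MOD p]) (hs : s < p) : m = s := by
  have h1 := (D.m_mod ht).symm.trans hts
  exact Nat.ModEq.eq_of_lt_of_lt h1 D.m_lt hs

/-- the case `PSL_d(F)` -/
theorem psl_case {H T : Subgroup (Perm (V p 1))} {m e : ℕ} (D : Dat H T m e) (h5 : 5 ≤ p)
    (hsol : ¬ Group.IsSolvable H) {d : ℕ} {F : Type} [Field F] [Fintype F] (hd : 2 ≤ d)
    (hcard : Fintype.card F ^ d - 1 = p ^ 1 * (Fintype.card F - 1))
    (iso : T ≃* Matrix.ProjectiveSpecialLinearGroup (Fin d) F) :
    alternatingGroup (V p 1) ≤ H ∨ ((p = 7 ∨ p = 11 ∨ p = 17 ∨ p = 23) ∧ ¬ AGL p 1 ≤ H) := by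
  have hpp : p.Prime := Fact.out
  rw [pow_one] at hcard
  obtain ⟨r, iC⟩ := CharP.exists F
  obtain ⟨f, hr, hF⟩ := FiniteField.card F r
  obtain ⟨f, hf⟩ := f
  simp only [PNat.mk_coe] at hF
  have : Fact r.Prime := ⟨hr⟩
  have hq : 2 ≤ Fintype.card F := Fintype.one_lt_card
  obtain ⟨n, rfl⟩ : ∃ n, d = n + 1 := ⟨d - 1, by omega⟩
  have hn : 1 ≤ n := by omega
  have hT : Nat.card T = p * NumOne.tt (Fintype.card F) n := by
    rw [Nat.card_congr iso.toEquiv, NumOne.card_PSL hn hpp hcard]
  have hsum : ∑ j ∈ Finset.range (n + 1), (Fintype.card F) ^ j = p := by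
    apply Nat.eq_of_mul_eq_mul_right (by omega : 0 < Fintype.card F - 1)
    rw [NT.sum_mul _ (n + 1) (by omega), hcard]
  have hlt : n + 1 < p := by
    rw [← hsum]
    exact NT.lt_sum hq hd
  have hm : m = n + 1 := D.m_eq hT (NumOne.tt_mod hpp (by omega) hq hn hcard) hlt
  have hpsl := D.S.psl hf hF hd (by
    intro h2
    rw [← hF]
    have : n = 1 := by omega
    subst this
    rw [Finset.sum_range_succ, Finset.sum_range_one, pow_zero, pow_one] at hsum
    omega) iso
  rw [NumOne.card_PGL hn hpp hcard, ← Nat.card_congr iso.toEquiv, mul_comm] at hpsl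
  have hout := Nat.eq_of_mul_eq_mul_right Nat.card_pos hpsl
  have hdvd := D.S.relIndex_dvd
  rw [hout] at hdvd
  set i := T.relIndex H with hi
  have he := D.e_eq
  rw [← hi, hm] at he
  have he2 : p - 1 ≤ 2 * e := by
    rcases D.he with ⟨h1, -⟩ | h1 <;> omega
  have hH := D.card_H
  rw [← hi, hT] at hH
  rw [hF] at hcard
  rcases Nat.lt_or_ge n 2 with h2 | h2
  · have hn1 : n = 1 := by omega
    subst hn1
    simp only [Nat.reduceAdd, if_true, one_mul] at hdvd
    have hle := Nat.le_of_dvd hf hdvd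
    rcases NumOne.arith_two hr hpp h5 hcard (by
      rw [he] at he2
      omega) with h3 | ⟨h3, h4⟩
    · left
      have hF4 : Fintype.card F = 4 := by
        rw [Finset.sum_range_succ, Finset.sum_range_one, pow_zero, pow_one] at hsum
        omega
      refine le_trans (alt_of_card (n := 5) ?_ ?_) D.S.le
      · rw [← Nat.card_eq_fintype_card, card_V, pow_one, h3]
      · rw [hT, hF4, h3]
        decide
    · right
      refine ⟨by omega, fun hle' => ?_⟩
      have h6 := D.e_of_le hle'
      rw [h4] at hdvd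
      have h7 : i = 8 := by omega
      rw [h7] at hdvd
      norm_num at hdvd
  · have hn1 : n + 1 ≠ 2 := by omega
    rw [if_neg hn1] at hdvd
    have hle := Nat.le_of_dvd (by omega) hdvd
    have hle2 : i * (n + 1) ≤ 2 * f * (n + 1) := Nat.mul_le_mul_right _ hle
    have hle3 : p - 1 ≤ 4 * f * (n + 1) := by
      have h6 : 4 * f * (n + 1) = 2 * (2 * f * (n + 1)) := by ring
      rw [h6]
      rw [he] at he2
      omega
    obtain ⟨h3, h4, h6⟩ := NumOne.arith_three hr hpp hf h2 hcard hle3
    subst h3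
    subst h4
    rw [pow_one] at hF
    rcases h6 with rfl | rfl
    · -- `p = 7`
      rw [hF] at hsum hT hH
      have hp7 : p = 7 := by
        rw [← hsum]
        simp [Finset.sum_range_succ]
      right
      refine ⟨Or.inl hp7, fun hle' => ?_⟩
      have h6 := D.e_of_le hle'
      have hi2 : i = 2 := by omega
      have h7 := D.three hsol (by rw [h6, hp7]; decide) h5
      rw [hH, hi2, hp7] at h7
      revert h7
      decide
    · exfalso
      rw [hF] at hsum hT hH
      have hp7 : p = 13 := by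
        rw [← hsum]
        simp [Finset.sum_range_succ]
      have hi2 : i = 2 := by
        have : i ≤ 2 := hle
        omega
      have h7 := D.three hsol (by rw [he, hi2]; decide) h5
      rw [hH, hi2, hp7] at h7
      revert h7
      decide

theorem card_psl_eleven : Nat.card (Matrix.ProjectiveSpecialLinearGroup (Fin 2) (ZMod 11)) = 660 := by
  have : Fact (Nat.Prime 11) := ⟨by norm_num⟩
  have h1 := S0243.result (F := ZMod 11) (q := 11) (ZMod.card 11) 2 le_rfl
  have h2 : Nat.gcd 2 (11 - 1) = 2 := by decide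
  have h3 : (11 ^ 2 - 11 ^ ((0 : Fin 2) : ℕ)) * (11 ^ 2 - 11 ^ ((1 : Fin 2) : ℕ)) = 13200 := by decide
  rw [Fin.prod_univ_two, h2, h3] at h1
  omega

/-- **the main theorem for `k = 1`** -/
theorem main_one (hG : IndexPP) {H : Subgroup (Perm (V p 1))} (h5 : 5 ≤ p) (hB : Big H) :
    H ≤ AGL p 1 ∨ alternatingGroup (V p 1) ≤ H ∨ ((p = 7 ∨ p = 11 ∨ p = 17 ∨ p = 23) ∧ ¬ AGL p 1 ≤ H) := by
  have hpp : p.Prime := Fact.out
  rcases exists_dat h5 hB with h | ⟨hsol, T, m, e, D⟩
  · exact Or.inl h
  right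
  have S := D.S
  have hidx : (MulAction.stabilizer T (0 : V p 1)).index = p ^ 1 := by
    have := S.trans
    rw [MulAction.index_stabilizer_of_transitive T (0 : V p 1), card_V]
  rcases hG T S.simple S.nonab (MulAction.stabilizer T (0 : V p 1)) p 1 hpp le_rfl hidx with
    ⟨h5', ⟨e'⟩⟩ | ⟨d, F, iF, iF', hd, hcard, ⟨e'⟩⟩ | ⟨h11, h⟩ | ⟨h23, h⟩ | ⟨h27, -⟩
  · exact Or.inl (S.alt h5' e')
  · exact psl_case D h5 hsol hd hcard e'
  · right
    rw [pow_one] at h11
    refine ⟨by omega, fun hle => ?_⟩
    have h6 := D.e_of_le hle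
    have he := D.e_eq
    rcases h with ⟨⟨e'⟩⟩ | h
    · have hT : Nat.card T = p * 60 := by
        rw [Nat.card_congr e'.toEquiv, card_psl_eleven, h11]
      have hm : m = 5 := D.m_eq hT (by rw [h11]; decide) (by omega)
      have hi : T.relIndex H = 2 := by
        rw [hm] at he
        omega
      have h7 := D.three hsol (by rw [h6, h11]; decide) h5
      rw [D.card_H, hT, hi, h11] at h7
      norm_num at h7
    · have hT : Nat.card T = p * 720 := by
        rw [h.2, h11]
      have hm : m = 5 := D.m_eq hT (by rw [h11]; decide) (by omega)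
      have hi : T.relIndex H = 2 := by
        rw [hm] at he
        omega
      have h7 := S.relIndex_one (fun α => SectRankFour.AutM11.exists_conj h α)
      omega
  · right
    rw [pow_one] at h23
    refine ⟨by omega, fun hle => ?_⟩
    have h6 := D.e_of_le hle
    have he := D.e_eq
    have hT : Nat.card T = p * 443520 := by
      rw [h.2, h23]
    have hm : m = 11 := D.m_eq hT (by rw [h23]; decide) (by omega)
    have hi : T.relIndex H = 2 := by
      rw [hm] at he
      omega
    have hiso := SporadicA.T23.isoM23_of_index h _ (by rw [hidx, pow_one, h23])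
    have h7 := S.relIndex_one (fun α => UGT.MTwentyThree.End.exists_conj hiso α)
    omega
  · exfalso
    rw [pow_one] at h27
    rw [h27] at hpp
    norm_num at hpp

end Cfsg.Agent.H605.Aff
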