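import Cfsg.Agent.H605.Aff.K2
import Cfsg.Agent.S0813
import Cfsg.Agent.ClassicalGeometry.PSL2Basic

/-!
# The index of `T` in `H` divides `|Out(T)|`
-/

set_option autoImplicit false

namespace Cfsg.Agent.H605.Aff

open Equiv

variable {p k : ℕ}

/-- `|H : T|` divides `|Out(T)|` -/
theorem Simp.relIndex_dvd {H T : Subgroup (Perm (V p k))} (S : Simp H T) :
    T.relIndex H ∣ (MulAut.conj : T →* MulAut T).range.index := by
  let T' : Subgroup H := T.subgroupOf H
  have hn : T'.Normal := ⟨fun n hn g => S.norm g g.2 n hn⟩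
  let e : T' ≃* T := Subgroup.subgroupOfEquivOfLe S.le
  let g : H →* MulAut T := (MulAut.congr e).toMonoidHom.comp (MulAut.conjNormal (H := T'))
  have hg : ∀ (h : H) (t : T), ((g h t : T) : Perm (V p k)) = (h : Perm (V p k)) * t * (h : Perm (V p k))⁻¹ :=
    fun h t => rfl
  have hnorm : (MulAut.conj : T →* MulAut T).range.Normal := by
    constructor
    rintro _ ⟨t, rfl⟩ α
    refine ⟨α t, ?_⟩
    ext x : 1
    simp [MulAut.conj_apply]
  have hcomap : (MulAut.conj : T →* MulAut T).range.comap g = T' := by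
    ext h
    rw [Subgroup.mem_comap, Subgroup.mem_subgroupOf]
    constructor
    · rintro ⟨t, ht⟩
      have h4 : ((t : Perm (V p k)))⁻¹ * h = 1 := by
        apply S.cent _ (H.mul_mem (H.inv_mem (S.le t.2)) h.2)
        intro s hs
        have h5 := congrArg (fun φ : MulAut T => ((φ ⟨s, hs⟩ : T) : Perm (V p k))) ht
        have h6 : (t : Perm (V p k)) * s * (t : Perm (V p k))⁻¹ = (h : Perm (V p k)) * s * (h : Perm (V p k))⁻¹ := h5
        have h7 : (h : Perm (V p k)) * s = (t : Perm (V p k)) * s * (t : Perm (V p k))⁻¹ * h := by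
          rw [h6]; group
        rw [mul_assoc, h7]
        group
      rw [inv_mul_eq_one] at h4
      rw [← h4]
      exact t.2
    · intro hh
      refine ⟨⟨h, hh⟩, ?_⟩
      ext x : 1
      rfl
  have h1 : T.relIndex H = (MulAut.conj : T →* MulAut T).range.relIndex g.range := by
    rw [← Subgroup.index_comap, hcomap]
    rfl
  rw [h1]
  exact Subgroup.relIndex_dvd_index_of_normal _ _

/-- `|Aut(T)| = |T| |Out(T)|` -/
theorem card_mulAut_eq {K : Type*} [Group K] [Finite K] (hK : Subgroup.center K = ⊥) :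
    Nat.card (MulAut K) = Nat.card K * (MulAut.conj : K →* MulAut K).range.index := by
  rw [← Subgroup.card_mul_index (MulAut.conj : K →* MulAut K).range]
  congr 1
  refine (Nat.card_congr (MonoidHom.ofInjective (f := (MulAut.conj : K →* MulAut K)) ?_).toEquiv).symm
  rw [injective_iff_map_eq_one]
  intro a ha
  rw [← Subgroup.mem_bot, ← hK, Subgroup.mem_center_iff]
  intro g
  have := congrArg (fun φ : MulAut K => φ g) ha
  simp only [MulAut.conj_apply, MulAut.one_apply, mul_inv_eq_iff_eq_mul] at this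
  exact this.symm

theorem center_eq_bot {K : Type*} [Group K] (hs : IsSimpleGroup K) (hn : ¬ IsMulCommutative K) :
    Subgroup.center K = ⊥ := by
  rcases hs.eq_bot_or_eq_top_of_normal (Subgroup.center K) inferInstance with h | h
  · exact h
  · exfalso
    apply hn
    refine ⟨⟨fun a b => ?_⟩⟩
    have : a ∈ Subgroup.center K := by rw [h]; trivial
    exact (Subgroup.mem_center_iff.1 this b).symm

theorem index_congr {K L : Type*} [Group K] [Group L] [Finite K] [Finite L] (e : K ≃* L)
    (hK : Subgroup.center K = ⊥) (hL : Subgroup.center L = ⊥) :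
    (MulAut.conj : K →* MulAut K).range.index = (MulAut.conj : L →* MulAut L).range.index := by
  have h1 := card_mulAut_eq hK
  have h2 := card_mulAut_eq hL
  rw [Nat.card_congr (MulAut.congr e).toEquiv, h2, Nat.card_congr e.toEquiv] at h1
  exact (Nat.eq_of_mul_eq_mul_left Nat.card_pos h1).symm

/-- `|T|·|Out|` for `T ≅ PSL_d(F)` -/
theorem Simp.psl {H T : Subgroup (Perm (V p k))} [Fact p.Prime] (S : Simp H T) {F : Type} [Field F] [Fintype F] {r f : ℕ}
    [Fact r.Prime] (hf : 1 ≤ f) (hF : Fintype.card F = r ^ f) {d : ℕ} (hd : 2 ≤ d) (h2 : d = 2 → 4 ≤ r ^ f)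
    (e : T ≃* Matrix.ProjectiveSpecialLinearGroup (Fin d) F) :
    Nat.card T * (MulAut.conj : T →* MulAut T).range.index
      = (if d = 2 then 1 else 2) * f * Nat.card (Matrix.ProjGenLinGroup (Fin d) F) := by
  rw [← S0813.result r f hf hF d hd h2, ← card_mulAut_eq (center_eq_bot S.simple S.nonab),
    Nat.card_congr (MulAut.congr e).toEquiv]

end Cfsg.Agent.H605.Aff
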