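import Cfsg.Agent.H605.Aff.Basic
import Cfsg.Agent.S0700

/-!
# Overgroups of the affine group: the two cases of Burnside's theorem
-/

set_option autoImplicit false

namespace Cfsg.Agent.H605.Aff

open Equiv

variable {p k : ℕ} [Fact p.Prime]

theorem finite_V : Finite (V p k) := inferInstance

/-- all even affine permutations lie in `H` -/
def Big (H : Subgroup (Perm (V p k))) : Prop := ∀ σ ∈ AGL p k, Perm.sign σ = 1 → σ ∈ H

/-- the translation group as a subgroup -/
def Tr (p k : ℕ) [Fact p.Prime] : Subgroup (Perm (V p k)) where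
  carrier := Set.range tr
  mul_mem' := by
    rintro _ _ ⟨a, rfl⟩ ⟨b, rfl⟩
    exact ⟨a + b, (tr_mul a b).symm⟩
  one_mem' := ⟨0, tr_zero⟩
  inv_mem' := by
    rintro _ ⟨a, rfl⟩
    exact ⟨-a, (tr_inv a).symm⟩

theorem mem_Tr {σ : Perm (V p k)} : σ ∈ Tr p k ↔ ∃ b, tr b = σ := Iff.rfl

theorem isPGroup_Tr : IsPGroup p (Tr p k) := by
  rintro ⟨_, b, rfl⟩
  refine ⟨1, ?_⟩
  apply Subtype.ext
  simp [tr_pow_p]

theorem card_V : Nat.card (V p k) = p ^ k := by
  rw [Nat.card_eq_fintype_card, Fintype.card_fun, ZMod.card, Fintype.card_fin]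

/-- A semiregular normal abelian subgroup of prime exponent is the translation group; then `H` is affine. -/
theorem le_AGL_of_abelian {H : Subgroup (Perm (V p k))} (htr : ∀ b, tr b ∈ H)
    (htrans : ∀ c b : V p k, c ≠ 0 → b ≠ 0 → (∃ n : ℕ, n • c = b) ∨
      ∃ A : V p k ≃ₗ[ZMod p] V p k, lin A ∈ H ∧ A c = b)
    {N : Subgroup H} [N.Normal] (hN : N ≠ ⊥) (hc : ∀ a ∈ N, ∀ b ∈ N, a * b = b * a)
    (hp : IsPGroup p N) : H ≤ AGL p k := by
  -- a fixed point of the translations
  obtain ⟨n, hnN, hn1, hn⟩ : ∃ n : H, n ∈ N ∧ n ≠ 1 ∧ ∀ b : V p k, (n : Perm (V p k)) * tr b = tr b * n := by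
    let T : Subgroup H := (Tr p k).subgroupOf H
    have hT : IsPGroup p T := by
      have h1 : T ≃* (Tr p k) := Subgroup.subgroupOfEquivOfLe (by
        rintro _ ⟨b, rfl⟩
        exact htr b)
      exact isPGroup_Tr.of_equiv h1.symm
    let _ : MulAction T N := MulAction.compHom N ((MulAut.conjNormal (H := N)).comp T.subtype)
    have hsm : ∀ (t : T) (x : N), ((t • x : N) : H) = t * x * (t : H)⁻¹ := fun t x => rfl
    have hdvd : p ∣ Nat.card N := by
      obtain ⟨m, hm⟩ := hp.exists_card_eq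
      rw [hm]
      rcases Nat.eq_zero_or_pos m with h0 | h0
      · rw [h0, pow_zero] at hm
        exact absurd ((Subgroup.card_eq_one).1 hm) hN
      · exact dvd_pow_self p h0.ne'
    obtain ⟨b, hb, hb1⟩ := hT.exists_fixed_point_of_prime_dvd_card_of_fixed_point N hdvd
      (a := (1 : N)) (fun t => by
        apply Subtype.ext
        rw [hsm]
        simp)
    refine ⟨b, b.2, fun h => hb1 (Subtype.ext h.symm), fun c => ?_⟩
    have h2 := congrArg (fun x : N => ((x : H) : Perm (V p k))) (hb ⟨⟨tr c, htr c⟩, Subgroup.mem_subgroupOf.2 ⟨c, rfl⟩⟩)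
    have h3 : tr c * (b : H) * (tr c)⁻¹ = ((b : H) : Perm (V p k)) := h2
    rw [mul_inv_eq_iff_eq_mul] at h3
    exact h3.symm
  obtain ⟨c, hcn⟩ : ∃ c, (n : Perm (V p k)) = tr c := ⟨_, eq_tr_of_comm hn⟩
  have hc0 : c ≠ 0 := by
    rintro rfl
    exact hn1 (Subtype.ext (by rw [hcn, tr_zero]; rfl))
  have hall : ∀ b, (⟨tr b, htr b⟩ : H) ∈ N := by
    intro b
    rcases eq_or_ne b 0 with rfl | hb
    · have : (⟨tr 0, htr 0⟩ : H) = 1 := Subtype.ext tr_zero
      rw [this]
      exact N.one_mem
    rcases htrans c b hc0 hb with ⟨m, hm⟩ | ⟨A, hA, hAc⟩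
    · have : (⟨tr b, htr b⟩ : H) = n ^ m := by
        apply Subtype.ext
        rw [Subgroup.coe_pow, hcn, tr_pow, hm]
      rw [this]
      exact N.pow_mem hnN m
    · have : (⟨tr b, htr b⟩ : H) = ⟨lin A, hA⟩ * n * (⟨lin A, hA⟩ : H)⁻¹ := by
        apply Subtype.ext
        rw [Subgroup.coe_mul, Subgroup.coe_mul, Subgroup.coe_inv, hcn]
        rw [conj_tr (σ := lin A) (A := A) (b := 0) (fun v => by simp) c, hAc]
      rw [this]
      exact ‹N.Normal›.conj_mem n hnN _
  have hN' : ∀ m ∈ N, ∃ b, tr b = (m : Perm (V p k)) := by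
    intro m hm
    refine ⟨_, (eq_tr_of_comm fun b => ?_).symm⟩
    exact congrArg Subtype.val (hc m hm _ (hall b))
  intro σ hσ
  apply mem_AGL_of_norm
  intro b
  obtain ⟨c', hc'⟩ := hN' _ (‹N.Normal›.conj_mem _ (hall b) ⟨σ, hσ⟩)
  exact ⟨c', hc'.symm⟩

/-- two-transitivity -/
theorem two_trans {H : Subgroup (Perm (V p k))} (htr : ∀ b, tr b ∈ H)
    (hlin : ∀ c b : V p k, c ≠ 0 → b ≠ 0 → ∃ σ ∈ H, σ 0 = 0 ∧ σ c = b) :
    MulAction.IsMultiplyPretransitive H (V p k) 2 := by
  rw [MulAction.is_two_pretransitive_iff]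
  intro a b c d hab hcd
  obtain ⟨σ, hσ, h0, h1⟩ := hlin (b - a) (d - c) (sub_ne_zero.2 hab.symm) (sub_ne_zero.2 hcd.symm)
  refine ⟨⟨tr c * σ * tr (-a), H.mul_mem (H.mul_mem (htr _) hσ) (htr _)⟩, ?_, ?_⟩
  · change (tr c * σ * tr (-a)) a = c
    simp [h0]
  · change (tr c * σ * tr (-a)) b = d
    simp only [Perm.mul_apply, tr_apply]
    rw [← sub_eq_add_neg, h1, sub_add_cancel]

/-- the hypothesis of the non-abelian case: `T` is a non-abelian simple normal subgroup of `H`, transitive and with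
trivial centraliser -/
structure Simp (H T : Subgroup (Perm (V p k))) : Prop where
  le : T ≤ H
  norm : ∀ h ∈ H, ∀ t ∈ T, h * t * h⁻¹ ∈ T
  simple : IsSimpleGroup T
  nonab : ¬ IsMulCommutative T
  trans : MulAction.IsPretransitive T (V p k)
  cent : ∀ c ∈ H, (∀ t ∈ T, c * t = t * c) → c = 1

omit [Fact p.Prime] in
/-- a transitive subgroup of the centraliser makes things semiregular -/
theorem semireg {C : Set (Perm (V p k))} (hC : ∀ x y : V p k, ∃ c ∈ C, c x = y) {s : Perm (V p k)}
    (hs : ∀ c ∈ C, s * c = c * s) {x : V p k} (hx : s x = x) : s = 1 := by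
  ext y : 1
  obtain ⟨c, hc, rfl⟩ := hC x y
  have h1 := congrArg (fun f : Perm (V p k) => f x) (hs c hc)
  simp only [Perm.mul_apply] at h1
  rw [h1, hx]
  rfl

/-- **Burnside's theorem applied to `H`**: affine, or a simple normal subgroup. -/
theorem burnside {H : Subgroup (Perm (V p k))} (hk : k ≠ 0) (htr : ∀ b, tr b ∈ H)
    (htrans : ∀ c b : V p k, c ≠ 0 → b ≠ 0 → (∃ n : ℕ, n • c = b) ∨
      ∃ A : V p k ≃ₗ[ZMod p] V p k, lin A ∈ H ∧ A c = b)
    (h2 : MulAction.IsMultiplyPretransitive H (V p k) 2) :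
    H ≤ AGL p k ∨ ∃ T : Subgroup (Perm (V p k)), Simp H T := by
  classical
  have hpp : p.Prime := Fact.out
  have hntV : Nontrivial (V p k) := by
    rw [← Finite.one_lt_card_iff_nontrivial, card_V]
    exact Nat.one_lt_pow hk hpp.one_lt
  have hprim : MulAction.IsPreprimitive H (V p k) := MulAction.isPreprimitive_of_is_two_pretransitive h2
  -- a minimal normal subgroup
  obtain ⟨N, ⟨hNn, hN1⟩, hNmin⟩ : ∃ N : Subgroup H, (N.Normal ∧ N ≠ ⊥) ∧ ∀ M : Subgroup H, M.Normal → M ≤ N →
      M = ⊥ ∨ M = N := by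
    have hfin : (Set.univ : Set (Subgroup H)).Finite := Set.toFinite _
    have hne : ({N : Subgroup H | N.Normal ∧ N ≠ ⊥}).Nonempty := by
      refine ⟨⊤, inferInstance, ?_⟩
      intro h
      obtain ⟨x, y, hxy⟩ := exists_pair_ne (V p k)
      obtain ⟨g, hg⟩ := MulAction.exists_smul_eq H x y
      have : g ∈ (⊤ : Subgroup H) := trivial
      rw [h, Subgroup.mem_bot] at this
      rw [this, one_smul] at hg
      exact hxy hg
    obtain ⟨N, hN⟩ := (Set.toFinite {N : Subgroup H | N.Normal ∧ N ≠ ⊥}).exists_minimal hne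
    refine ⟨N, hN.prop, fun M hM hMN => ?_⟩
    by_contra hcon
    push Not at hcon
    exact hcon.2 (le_antisymm hMN (hN.le_of_le ⟨hM, hcon.1⟩ hMN))
  have hNtrans : MulAction.IsPretransitive N (V p k) := by
    have := hprim.isQuasiPreprimitive
    apply MulAction.IsQuasiPreprimitive.isPretransitive_of_normal (G := H)
    intro h
    apply hN1
    rw [eq_bot_iff]
    intro n hn
    rw [Subgroup.mem_bot]
    apply Subtype.ext
    ext x : 1
    have : x ∈ MulAction.fixedPoints N (V p k) := by rw [h]; trivial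
    exact this ⟨n, hn⟩
  have hNt : ∀ x y : V p k, ∃ n ∈ N, (n : Perm (V p k)) x = y := by
    intro x y
    obtain ⟨g, hg⟩ := MulAction.exists_smul_eq N x y
    exact ⟨g, g.2, hg⟩
  -- if `N` is commutative then it is a `p`-group
  have hab : IsMulCommutative N → H ≤ AGL p k := by
    intro hc
    have hc' : ∀ a ∈ N, ∀ b ∈ N, a * b = b * a := fun a ha b hb =>
      congrArg Subtype.val (hc.is_comm.comm (⟨a, ha⟩ : N) ⟨b, hb⟩)
    apply le_AGL_of_abelian htr htrans hN1 hc'
    have hst : MulAction.stabilizer N (0 : V p k) = ⊥ := by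
      rw [eq_bot_iff]
      intro n hn
      rw [Subgroup.mem_bot]
      apply Subtype.ext
      apply Subtype.ext
      refine semireg (C := {σ | ∃ m ∈ N, (m : Perm (V p k)) = σ}) (x := 0) ?_ ?_ hn
      · intro x y
        obtain ⟨m, hm, h⟩ := hNt x y
        exact ⟨m, ⟨m, hm, rfl⟩, h⟩
      · rintro _ ⟨m, hm, rfl⟩
        exact congrArg Subtype.val (hc' _ n.2 m hm)
    have h1 : Nat.card N = p ^ k := by
      have := MulAction.index_stabilizer_of_transitive N (0 : V p k)
      rw [hst, Subgroup.index_bot, card_V] at this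
      exact this
    exact IsPGroup.of_card h1
  rcases S0700.result H h2 N hN1 hNmin with h | h
  · exact Or.inl (hab h.1)
  · by_cases hc : IsMulCommutative N
    · exact Or.inl (hab hc)
    right
    have hsimp := h.1
    refine ⟨N.map H.subtype, ?_⟩
    let e : N ≃* (N.map H.subtype) := N.equivMapOfInjective _ H.subtype_injective
    have hcomm : ∀ c ∈ H, (∀ t ∈ N.map H.subtype, c * t = t * c) → c = 1 := by
      intro c hcH hct
      by_contra hne
      -- the centraliser of `N` in `H`
      have hCn : (Subgroup.centralizer (N : Set H)).Normal := inferInstance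
      have hCt : MulAction.IsPretransitive (Subgroup.centralizer (N : Set H)) (V p k) := by
        have := hprim.isQuasiPreprimitive
        apply MulAction.IsQuasiPreprimitive.isPretransitive_of_normal (G := H)
        intro h
        apply hne
        ext x : 1
        have hx : x ∈ MulAction.fixedPoints (Subgroup.centralizer (N : Set H)) (V p k) := by rw [h]; trivial
        exact hx ⟨⟨c, hcH⟩, by
          rw [Subgroup.mem_centralizer_iff]
          intro n hn
          apply Subtype.ext
          exact (hct _ ⟨n, hn, rfl⟩).symm⟩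
      have hst : MulAction.stabilizer N (0 : V p k) = ⊥ := by
        rw [eq_bot_iff]
        intro n hn
        rw [Subgroup.mem_bot]
        apply Subtype.ext
        apply Subtype.ext
        refine semireg (C := {σ | ∃ m ∈ Subgroup.centralizer (N : Set H), (m : Perm (V p k)) = σ}) (x := 0) ?_ ?_ hn
        · intro x y
          obtain ⟨g, hg⟩ := MulAction.exists_smul_eq (Subgroup.centralizer (N : Set H)) x y
          exact ⟨_, ⟨g, g.2, rfl⟩, hg⟩
        · rintro _ ⟨m, hm, rfl⟩
          exact congrArg Subtype.val (Subgroup.mem_centralizer_iff.1 hm _ n.2)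
      have h1 : Nat.card N = p ^ k := by
        have := MulAction.index_stabilizer_of_transitive N (0 : V p k)
        rw [hst, Subgroup.index_bot, card_V] at this
        exact this
      have hpg : IsPGroup p N := IsPGroup.of_card h1
      have hnil : Group.IsNilpotent N := hpg.isNilpotent
      apply hc
      have hnt : Nontrivial N := hsimp.toNontrivial
      have hcen : Subgroup.center N = ⊤ := by
        rcases hsimp.eq_bot_or_eq_top_of_normal (Subgroup.center N) inferInstance with h | h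
        · have : Nontrivial (Subgroup.center N) := hpg.center_nontrivial
          rw [h] at this
          exact absurd this (not_nontrivial _)
        · exact h
      refine ⟨⟨fun a b => ?_⟩⟩
      have : a ∈ Subgroup.center N := by rw [hcen]; trivial
      exact (Subgroup.mem_center_iff.1 this b).symm
    constructor
    · rintro _ ⟨n, hn, rfl⟩
      exact n.2
    · rintro h hh _ ⟨n, hn, rfl⟩
      exact ⟨⟨h, hh⟩ * n * ⟨h, hh⟩⁻¹, hNn.conj_mem n hn _, rfl⟩
    · exact e.symm.isSimpleGroup
    · intro hT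
      apply hc
      refine ⟨⟨fun a b => ?_⟩⟩
      apply e.injective
      rw [map_mul, map_mul]
      exact hT.is_comm.comm _ _
    · refine ⟨fun x y => ?_⟩
      obtain ⟨n, hn, h⟩ := hNt x y
      exact ⟨⟨n, n, hn, rfl⟩, h⟩
    · exact hcomm

end Cfsg.Agent.H605.Aff
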