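import Cfsg.Agent.H605.Aff.Over
import Cfsg.Agent.Schreier.Basic

/-!
# Perfect groups of `H` lie in `T`
-/

set_option autoImplicit false

namespace Cfsg.Agent.H605.Aff

open Equiv
open Cfsg.Agent.Schreier.Basic

variable {p k : ℕ} [Fact p.Prime]

omit [Fact p.Prime] in
/-- a perfect group mapping to `H` maps to `T` -/
theorem Simp.mem_of_perfect {H T : Subgroup (Perm (V p k))} (S : Simp H T) (hT : Sch T)
    {X : Type*} [Group X] (hX : commutator X = ⊤) (f : X →* Perm (V p k)) (hf : ∀ x, f x ∈ H) (x : X) :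
    f x ∈ T := by
  let T' : Subgroup H := T.subgroupOf H
  have hn : T'.Normal := ⟨fun n hn g => S.norm g g.2 n hn⟩
  have hT' : Sch T' := hT.of_equiv (Subgroup.subgroupOfEquivOfLe S.le).symm
  let g : X →* MulAut T' := (MulAut.conjNormal (H := T')).comp (f.codRestrict H hf)
  have h1 : ⁅(⊤ : Subgroup X), (⊤ : Subgroup X)⁆ = ⊤ := by rw [← commutator_def, hX]
  have h2 := hT' _ (map_perfect g h1)
  obtain ⟨t, ht⟩ := h2 ⟨x, Subgroup.mem_top _, rfl⟩
  have h3 : ∀ s : T', (f x) * ((s : H) : Perm (V p k)) * (f x)⁻¹ = ((t : H) : Perm (V p k)) * ((s : H) : Perm (V p k)) * ((t : H) : Perm (V p k))⁻¹ := by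
    intro s
    have := congrArg (fun φ : MulAut T' => ((φ s : H) : Perm (V p k))) ht
    exact this.symm
  have h4 : (((t : H) : Perm (V p k)))⁻¹ * f x = 1 := by
    apply S.cent _ (H.mul_mem (H.inv_mem (t : H).2) (hf x))
    intro s hs
    have h5 := h3 ⟨⟨s, S.le hs⟩, hs⟩
    simp only at h5
    rw [mul_inv_eq_iff_eq_mul] at h5
    rw [mul_assoc, h5]
    group
  rw [inv_mul_eq_one] at h4
  rw [← h4]
  exact t.2

/-- the special linear group as permutations -/
def slhom (p k : ℕ) [Fact p.Prime] : Matrix.SpecialLinearGroup (Fin k) (ZMod p) →* Perm (V p k) where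
  toFun A := lin (Matrix.SpecialLinearGroup.toLin' A)
  map_one' := by
    ext v : 1
    simp
  map_mul' A B := by
    ext v : 1
    simp

theorem slhom_apply (A : Matrix.SpecialLinearGroup (Fin k) (ZMod p)) (v : V p k) :
    slhom p k A v = A.1.mulVec v := rfl

theorem slhom_mem (A : Matrix.SpecialLinearGroup (Fin k) (ZMod p)) : slhom p k A ∈ AGL p k := lin_mem _

/-- transvections are in the image -/
theorem exists_slhom (f : Module.Dual (ZMod p) (V p k)) (u : V p k) (h : f u = 0) :
    ∃ A, slhom p k A = tv f u h := by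
  have hdet : (LinearMap.toMatrix' (LinearMap.transvection f u)).det = 1 := by
    rw [LinearMap.det_toMatrix', LinearMap.transvection.det, h, add_zero]
  obtain ⟨A, hA⟩ : ∃ A : Matrix.SpecialLinearGroup (Fin k) (ZMod p),
      A.1 = LinearMap.toMatrix' (LinearMap.transvection f u) := ⟨⟨_, hdet⟩, rfl⟩
  refine ⟨A, ?_⟩
  ext v : 1
  rw [slhom_apply, hA]
  exact LinearMap.toMatrix'_mulVec _ _

end Cfsg.Agent.H605.Aff
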